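import Cfsg.Agent.INV.M23.Defs

/-! Balance. -/

set_option autoImplicit false
set_option linter.style.haveILetI false
set_option linter.unusedSectionVars false
open Subgroup Cfsg CL.MSS CL.BG CL.KM CL.K3

namespace CL.M23
variable {G : Type*} [Group G] [Finite G]

theorem bal_cent {x : G} (hx : x ^ 3 = 1) : piCoreOf ({3}ᶜ : Set ℕ) 𝐍(zpowers x) ≤ 𝐂(zpowers x) := by
  haveI : Fact (Nat.Prime 3) := ⟨Nat.prime_three⟩
  exact le_cent_of_coprime (pcore_sub _ _) ((le_norm_self _).trans (pcore_norm _ _))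
    ((pcore_pgroup _ _).coprime_isPGroup' (ea_zp hx).isPGroup rfl)

theorem bal_odd {O T : Subgroup G} (hT : SylIn 2 T O) (h : T = ⊥) : Odd #|O| :=
  Nat.not_even_iff_odd.1 fun he => hT.ne_bot (even_iff_two_dvd.1 he) h

theorem bal_inv {A : Subgroup G} (hA : IsPGroup 3 A) {x : G} (hx : A ≤ 𝐍(zpowers x)) :
    ∃ T, SylIn 2 T (piCoreOf ({3}ᶜ : Set ℕ) 𝐍(zpowers x)) ∧ A ≤ 𝐍(T) := by
  haveI : Fact (Nat.Prime 3) := ⟨Nat.prime_three⟩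
  exact H39.exists_inv_sylIn (hx.trans (pcore_norm _ _)) ((pcore_pgroup _ _).coprime_isPGroup' hA (Set.mem_singleton 3))
    (Or.inl (solvable_of_nilpotent (nilpotent_of_isPGroup hA))) 2

/-- `O = O_{3'}(N⟨x⟩)` centralizes `x` (`[O, x] ≤ O ⊓ ⟨x⟩ = 1`).  With `X = N⟨d⟩` (3-constrained, `x ∈ X`):
`O ⊓ C(d)` lies in `O ⊓ C_X(x)`, a normal 3'-subgroup of `C_X(x)`, so in `O_{3'}(C_X(x)) ≤ O_{3'}(X)`
(`IsPConstrained.map_pPrimeCore_centralizer`, PLOC/PConstrained, in the group `↥X` with `P = ⟨x⟩`;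
`piCoreOf {3}ᶜ` vs `pPrimeCore 3`: ODD/BaseCore). -/
theorem balance (hc : Con G) {x d : G} (hx : x ^ 3 = 1) (hd : d ^ 3 = 1) (d1 : d ≠ 1)
    (hxd : Commute x d) : piCoreOf ({3}ᶜ : Set ℕ) 𝐍(zpowers x) ⊓ 𝐂₁(d) ≤
      piCoreOf ({3}ᶜ : Set ℕ) 𝐍(zpowers d) := by
  haveI : Fact (Nat.Prime 3) := ⟨Nat.prime_three⟩
  have hcon := hc (zpowers d) (ea_zp hd).isPGroup (by simpa using d1)
  have hCN : 𝐂₁(d) ≤ 𝐍(zpowers d) := by rw [← cent_zpowers]; exact BG.cent_le_norm _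
  have hxX : zpowers x ≤ 𝐍(zpowers d) := zpowers_le.2 (hCN (mem_cent1.2 hxd.symm))
  have key := hcon.map_pPrimeCore_centralizer
    (isPGroup_subgroupOf (ea_zp hx).isPGroup 𝐍(zpowers d))
  have hmem : ∀ y : 𝐍(zpowers d), y ∈ 𝐂((zpowers x).subgroupOf 𝐍(zpowers d)) ↔ (y : G) ∈ 𝐂(zpowers x) :=
    fun y => ⟨fun h => mem_cent.2 fun s hs => congrArg Subtype.val (mem_cent.1 h ⟨s, hxX hs⟩ hs),
      fun h => mem_cent.2 fun s hs => Subtype.ext (mem_cent.1 h s hs)⟩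
  have hN : (piCoreOf ({3}ᶜ : Set ℕ) 𝐍(zpowers x)).subgroupOf 𝐍(zpowers d) ≤
      piCoreOf ({3}ᶜ : Set ℕ) 𝐂((zpowers x).subgroupOf 𝐍(zpowers d)) :=
    pcore_max ⟨fun y hy => (hmem y).2 (bal_cent hx hy), fun y hy => mem_norm fun s hs =>
      mem_subgroupOf.2 (conj_mem (pcore_norm _ _ (BG.cent_le_norm _ ((hmem y).1 hy))) (mem_subgroupOf.1 hs))⟩ ((pcore_pgroup _ _).subgroupOf _)
  rw [CL.pPrimeCore_eq_piCore, CL.pPrimeCore_eq_piCore] at key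
  rintro y ⟨hy, hyd⟩
  exact ⟨⟨y, hCN hyd⟩, (key.le (hN (show (⟨y, hCN hyd⟩ : 𝐍(zpowers d)) ∈ _ from hy))).1, rfl⟩

/-- an involution does not lie in a group of odd order -/
theorem Od.eq_one {x z : G} (h : Od x) (hz : z ∈ piCoreOf ({3}ᶜ : Set ℕ) 𝐍(zpowers x))
    {k : ℕ} (z2 : z ^ 2 ^ k = 1) : z = 1 := by
  have h1 : orderOf z ∣ #|piCoreOf ({3}ᶜ : Set ℕ) 𝐍(zpowers x)| := Subgroup.orderOf_dvd_natCard _ hz
  exact orderOf_eq_one_iff.1 (Nat.eq_one_of_dvd_coprimes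
    (Nat.Coprime.pow_right k (Nat.coprime_two_right.2 h)) h1 (orderOf_dvd_of_pow_eq_one z2))

/-- `D ≤ N⟨x⟩` normalizes `O = O_{3'}(N⟨x⟩)`; take a `D`-invariant Sylow 2-subgroup `T` of `O`
(`H39.exists_inv_sylIn`).  By `balance`, `C_T(d)` is a 2-group of odd order for `d ∈ D#`, so `T = ⊥`
(`coprime_le_of_forall_centralizer_le`, `not_cyclic`). -/
theorem od_step (hc : Con G) {D : Subgroup G} (hD : EA 3 D) (h9 : 9 ≤ #|D|)
    (ho : ∀ d ∈ D, d ≠ 1 → Od d) {x : G} (hx : x ∈ 𝐂(D)) (x3 : x ^ 3 = 1) : Od x := by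
  haveI : Fact (Nat.Prime 3) := ⟨Nat.prime_three⟩
  obtain ⟨T, hT, hDT⟩ := bal_inv hD.isPGroup (x := x) fun d hd =>
    KM.cent_le_norm fun _ hy => comm_zp (mem_cent.1 hx d hd).symm hy
  refine bal_odd hT (le_bot_iff.1 ?_)
  haveI := hD.comm
  refine coprime_le_of_forall_centralizer_le D T ⊥ (not_cyclic hD h9) hDT
    (IsPGroup.coprime_card_of_ne 3 2 (by norm_num) _ _ hD.isPGroup hT.pgroup) fun d hd d1 y hy => ?_
  obtain ⟨k, hk⟩ := pg_elem hT.pgroup hy.1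
  exact (ho d hd d1).eq_one (balance hc x3 (hD.2 d hd) d1 (mem_cent.1 hx d hd).symm ⟨hT.le hy.1, hy.2⟩) hk

/-- no `A`-invariant 2-subgroup: the `A`-invariant Sylow 2-subgroup of `O_{3'}(N⟨x⟩)` is trivial. -/
theorem od_of_noinv {A : Subgroup G} (hA : IsPGroup 3 A) {x : G} (hx : A ≤ 𝐍(zpowers x))
    (h : ∀ T : Subgroup G, IsPGroup 2 T → A ≤ 𝐍(T) → T = ⊥) : Od x := by
  obtain ⟨T, hT, hAT⟩ := bal_inv hA hx
  exact bal_odd hT (h T hT.pgroup hAT)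

theorem Od.conj {x : G} (h : Od x) (g : G) : Od (g * x * g⁻¹) := by
  unfold Od
  rwa [← cj_zpowers, ← cj_normalizer, pcoreJ, card_cj]

end CL.M23
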