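import Cfsg.Agent.INV.K3.Base
import Cfsg.Agent.ODD.ThBender
import Cfsg.Agent.PLOC.PConstrained

/-!
# Groups of characteristic 2 type, 3-constrained, with `E₉` in a 2-local subgroup: definitions
-/

set_option autoImplicit false
set_option linter.style.haveILetI false
set_option linter.unusedSectionVars false
open Subgroup Cfsg CL.MSS CL.BG CL.KM CL.K3

namespace CL.M23

/-- the three groups -/
def Concl (G : Type*) [Group G] : Prop :=
  ∃ (F : Type) (_ : Field F) (_ : Fintype F), Fintype.card F = 3 ∧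
    (Nonempty (G ≃* ↥(Cfsg.Lie.chevG2.group F)) ∨ Nonempty (G ≃* Cfsg.PSp 2 F) ∨
      ∃ (K : Type) (_ : Field K) (_ : Fintype K), Fintype.card K = 9 ∧ Nonempty (G ≃* Cfsg.PSU 4 K 3))

variable {G : Type*} [Group G]

/-- `O_{3'}(N(⟨x⟩))` has odd order -/
def Od (x : G) : Prop := Odd #|piCoreOf ({3}ᶜ : Set ℕ) 𝐍(zpowers x)|

/-- all 3-local subgroups are 3-constrained -/
def Con (G : Type*) [Group G] : Prop :=
  ∀ T : Subgroup G, IsPGroup 3 T → T ≠ ⊥ → IsPConstrained 3 (𝐍(T) : Subgroup G)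

/-- the standing hypotheses -/
structure Hy (G : Type*) [Group G] : Prop where
  simple : IsSimpleGroup G
  nc : ¬ IsMulCommutative G
  c2 : IsCharacteristicTwoType G
  r3 : ¬ PRankLE 2 2 G
  con : Con G
  syl : ∀ R : Subgroup G, IsPGroup 3 R → ∃ U W : Subgroup G, EA 3 W ∧ 27 ≤ #|W| ∧ U ≤ W ∧
    #|U| = 9 ∧ R ≤ 𝐍(U) ∧ ∀ x ∈ 𝐂(U), x ≠ 1 → x ^ 3 = 1 → Od x

/-- `⟨a, b⟩ ≅ E₉` -/
structure I2 (a b : G) : Prop where
  a3 : a ^ 3 = 1
  b3 : b ^ 3 = 1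
  ab : Commute a b
  a1 : a ≠ 1
  nb : b ∉ zpowers a

/-- `⟨a, b, c⟩ ≅ E₂₇` -/
structure I3 (a b c : G) : Prop extends I2 a b where
  c3 : c ^ 3 = 1
  ac : Commute a c
  bc : Commute b c
  nc : ∀ i j : Fin 3, c ≠ a ^ (i : ℕ) * b ^ (j : ℕ)

theorem mem_zp3 {a x : G} (h : a ^ 3 = 1) : x ∈ zpowers a ↔ x = 1 ∨ x = a ∨ x = a * a := by
  refine ⟨fun hx => ?_, ?_⟩
  · obtain ⟨k, rfl⟩ := mem_zpowers_iff.1 hx
    have h3 : a ^ (3 : ℤ) = 1 := by exact_mod_cast h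
    rw [← Int.emod_add_mul_ediv k 3, zpow_add, zpow_mul, h3, one_zpow, mul_one]
    rcases (by omega : k % 3 = 0 ∨ k % 3 = 1 ∨ k % 3 = 2) with e | e | e <;> rw [e]
    exacts [Or.inl (zpow_zero a), Or.inr (Or.inl (zpow_one a)), Or.inr (Or.inr (zpow_two a))]
  · rintro (rfl | rfl | rfl)
    exacts [one_mem _, mem_zpowers _, mul_mem (mem_zpowers _) (mem_zpowers _)]

theorem mem_zp3' {a x : G} (h : a ^ 3 = 1) : x ∈ zpowers a ↔ ∃ i : Fin 3, x = a ^ (i : ℕ) := by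
  rw [mem_zp3 h]
  refine ⟨?_, ?_⟩
  · rintro (rfl | rfl | rfl)
    exacts [⟨0, by simp⟩, ⟨1, by simp⟩, ⟨2, by simp [pow_two]⟩]
  · rintro ⟨i, rfl⟩
    fin_cases i <;> simp [pow_two]

theorem i2_of {a b : G} (a3 : a ^ 3 = 1) (b3 : b ^ 3 = 1) (ab : Commute a b) (a1 : a ≠ 1)
    (b1 : b ≠ 1) (n1 : b ≠ a) (n2 : b ≠ a * a) : I2 a b :=
  ⟨a3, b3, ab, a1, fun h => by rcases (mem_zp3 a3).1 h with e | e | e <;> contradiction⟩

theorem ea_zp {q : ℕ} {a : G} (h : a ^ q = 1) : EA q (zpowers a) := by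
  rw [zpowers_eq_closure]
  exact ea_closure _ (by rintro _ rfl _ rfl; exact Commute.refl _) (by rintro _ rfl; exact h)

theorem card_zp3 {a : G} (h : a ^ 3 = 1) (h1 : a ≠ 1) : #|zpowers a| = 3 := by
  haveI : Fact (Nat.Prime 3) := ⟨Nat.prime_three⟩
  rw [Nat.card_zpowers, orderOf_eq_prime h h1]

theorem comm_zp {a x y : G} (h : Commute a y) (hx : x ∈ zpowers a) : Commute x y := by
  obtain ⟨k, rfl⟩ := mem_zpowers_iff.1 hx
  exact h.zpow_left k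

theorem I2.b1 {a b : G} (i : I2 a b) : b ≠ 1 := fun e => i.nb (e ▸ one_mem _)

theorem I2.ea {a b : G} (i : I2 a b) : EA 3 (zpowers a ⊔ zpowers b) :=
  (ea_zp i.a3).sup_zpowers i.b3 fun _ hx => comm_zp i.ab hx

theorem mem_sup_zp {a b x : G} (h : Commute a b) :
    x ∈ zpowers a ⊔ zpowers b ↔ ∃ u ∈ zpowers a, ∃ v ∈ zpowers b, u * v = x :=
  mem_sup_of_normalizes_right (zpowers_le.2 (cent_le_norm fun _ hy => comm_zp h.symm hy))

theorem I2.mem {a b x : G} (i : I2 a b) :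
    x ∈ zpowers a ⊔ zpowers b ↔ ∃ k l : Fin 3, x = a ^ (k : ℕ) * b ^ (l : ℕ) := by
  rw [mem_sup_zp i.ab]
  refine ⟨?_, ?_⟩
  · rintro ⟨u, hu, v, hv, rfl⟩
    obtain ⟨k, rfl⟩ := (mem_zp3' i.a3).1 hu
    obtain ⟨l, rfl⟩ := (mem_zp3' i.b3).1 hv
    exact ⟨k, l, rfl⟩
  · rintro ⟨k, l, rfl⟩
    exact ⟨_, pow_mem (mem_zpowers a) _, _, pow_mem (mem_zpowers b) _, rfl⟩

theorem I2.symm {a b : G} (i : I2 a b) : I2 b a := by
  refine ⟨i.b3, i.a3, i.ab.symm, i.b1, fun h => i.nb ?_⟩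
  rcases (mem_zp3 i.b3).1 h with e | e | e
  · exact (i.a1 e).elim
  · exact e ▸ mem_zpowers a
  · have : b = a * a := by
      rw [e, mul_assoc, ← pow_three, i.b3, mul_one]
    exact this ▸ mul_mem (mem_zpowers a) (mem_zpowers a)

theorem I2.of_map {H : Type*} [Group H] {φ : G →* H} {a b : G} (i : I2 (φ a) (φ b)) (a3 : a ^ 3 = 1)
    (b3 : b ^ 3 = 1) (ab : Commute a b) : I2 a b :=
  ⟨a3, b3, ab, fun e => i.a1 (by rw [e, map_one]), fun h => i.nb (by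
    rw [← MonoidHom.map_zpowers]; exact mem_map_of_mem φ h)⟩

theorem I2.map {H : Type*} [Group H] {φ : G →* H} (hφ : Function.Injective φ) {a b : G}
    (i : I2 a b) : I2 (φ a) (φ b) :=
  ⟨by rw [← map_pow, i.a3, map_one], by rw [← map_pow, i.b3, map_one], i.ab.map φ,
    fun e => i.a1 (hφ (e.trans (map_one φ).symm)), fun h => i.nb (by
      rw [← MonoidHom.map_zpowers] at h
      obtain ⟨y, hy, e⟩ := h
      exact hφ e ▸ hy)⟩

theorem I3.map {H : Type*} [Group H] {φ : G →* H} (hφ : Function.Injective φ) {a b c : G}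
    (i : I3 a b c) : I3 (φ a) (φ b) (φ c) :=
  ⟨i.toI2.map hφ, by rw [← map_pow, i.c3, map_one], i.ac.map φ, i.bc.map φ, fun k l e =>
    i.nc k l (hφ (by rw [e, map_mul, map_pow, map_pow]))⟩

theorem I3.ea {a b c : G} (i : I3 a b c) : EA 3 (zpowers a ⊔ zpowers b ⊔ zpowers c) :=
  i.toI2.ea.sup_zpowers i.c3 fun _ hx => by
    obtain ⟨u, hu, v, hv, rfl⟩ := (mem_sup_zp i.ab).1 hx
    exact (comm_zp i.ac hu).mul_left (comm_zp i.bc hv)

theorem good_conj {p n : ℕ} {z : G} {A : Subgroup G} (g : Good p n z A) (k : G) :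
    Good p n (k * z * k⁻¹) (k •ᶜ A) :=
  ⟨fun e => g.ne (conj_eq_one_iff.1 e), by rw [conj_mul, g.sq, mul_one, mul_inv_cancel],
    ⟨fun a ha b hb => by
      obtain ⟨a', ha', rfl⟩ := mem_cj'.1 ha
      obtain ⟨b', hb', rfl⟩ := mem_cj'.1 hb
      exact comm_conj (g.ea.1 a' ha' b' hb'), fun a ha => by
      obtain ⟨a', ha', rfl⟩ := mem_cj'.1 ha
      rw [conj_pow, g.ea.2 a' ha', mul_one, mul_inv_cancel]⟩, fun a ha => by
      obtain ⟨a', ha', rfl⟩ := mem_cj'.1 ha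
      exact comm_conj (g.comm a' ha'), by rw [card_cj]; exact g.big⟩

theorem good_ord {p n : ℕ} {z : G} {A : Subgroup G} (g : Good p n z A) : orderOf z = 2 :=
  CL.LX.orderOf_eq_two_of g.ne g.sq

variable [Finite G]

theorem I2.card {a b : G} (i : I2 a b) : #|(zpowers a ⊔ zpowers b : Subgroup G)| = 9 := by
  haveI : Fact (Nat.Prime 3) := ⟨Nat.prime_three⟩
  have h1 := mul_card_le_of_lt i.ea.isPGroup (lt_of_le_of_ne (le_sup_left : zpowers a ≤ _)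
    fun e => i.nb (e ▸ mem_sup_right (mem_zpowers b)))
  rw [card_zp3 i.a3 i.a1] at h1
  refine le_antisymm ?_ h1
  refine (Nat.card_le_card_of_surjective (fun x : Fin 3 × Fin 3 =>
    (⟨a ^ (x.1 : ℕ) * b ^ (x.2 : ℕ), i.mem.2 ⟨_, _, rfl⟩⟩ : (zpowers a ⊔ zpowers b : Subgroup G)))
    fun y => ?_).trans (by simp)
  obtain ⟨k, l, e⟩ := i.mem.1 y.2
  exact ⟨(k, l), Subtype.ext e.symm⟩

theorem I3.card {a b c : G} (i : I3 a b c) :
    27 ≤ #|(zpowers a ⊔ zpowers b ⊔ zpowers c : Subgroup G)| := by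
  haveI : Fact (Nat.Prime 3) := ⟨Nat.prime_three⟩
  have h1 := mul_card_le_of_lt i.ea.isPGroup (lt_of_le_of_ne
    (le_sup_left : zpowers a ⊔ zpowers b ≤ _) fun e => by
      obtain ⟨k, l, e'⟩ := i.toI2.mem.1 (e.ge (mem_sup_right (mem_zpowers c)))
      exact i.nc k l e')
  rwa [i.toI2.card] at h1

theorem exists_ne_one {A : Subgroup G} (h : 1 < #|A|) : ∃ a ∈ A, a ≠ 1 := by
  by_contra! hc
  rw [(eq_bot_iff_forall A).2 hc, card_bot] at h
  omega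

theorem exists_i2 {A : Subgroup G} (hA : EA 3 A) (h9 : 9 ≤ #|A|) {a : G} (ha : a ∈ A) (h1 : a ≠ 1) :
    ∃ b ∈ A, I2 a b := by
  obtain ⟨b, hb, n⟩ := SetLike.not_le_iff_exists.1 fun e : A ≤ zpowers a => by
    have := card_le_of_le e
    rw [card_zp3 (hA.2 a ha) h1] at this
    omega
  exact ⟨b, hb, hA.2 a ha, hA.2 b hb, hA.1 a ha b hb, h1, n⟩

theorem I2.good {z a b : G} (i : I2 a b) (z1 : z ≠ 1) (zz : z * z = 1) (az : Commute a z)
    (bz : Commute b z) : Good 3 9 z (zpowers a ⊔ zpowers b) :=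
  ⟨z1, zz, i.ea, fun _ hx => by
    obtain ⟨u, hu, v, hv, rfl⟩ := (mem_sup_zp i.ab).1 hx
    exact (comm_zp az hu).mul_left (comm_zp bz hv), i.card.ge⟩

theorem I2.eq_of_card {a b : G} (i : I2 a b) {E : Subgroup G} (ha : a ∈ E) (hb : b ∈ E)
    (h9 : #|E| = 9) : zpowers a ⊔ zpowers b = E :=
  eq_of_le_of_card_ge (sup_le (zpowers_le.2 ha) (zpowers_le.2 hb)) (by rw [h9, i.card])

theorem not_cyclic {A : Subgroup G} (hA : EA 3 A) (h9 : 9 ≤ #|A|) : ¬ IsCyclic A := fun hc => by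
  obtain ⟨g, hg⟩ := hc.exists_generator
  have h1 := orderOf_eq_card_of_forall_mem_zpowers hg
  have h2 := Nat.le_of_dvd (by norm_num) (orderOf_dvd_of_pow_eq_one
    (Subtype.ext (hA.2 g g.2) : g ^ 3 = 1))
  omega

end CL.M23
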