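import Cfsg.Agent.INV.M23.Od

/-! The dihedral lemma. -/

set_option autoImplicit false
set_option linter.style.haveILetI false
set_option linter.unusedSectionVars false
open Subgroup Cfsg CL.MSS CL.BG CL.KM CL.K3

namespace CL.M23
variable {G : Type*} [Group G] [Finite G]

/-- `X = N⟨x⟩`, `H = pPrimePCoreOf 3 X`.  `|H|` is odd (`p'core_Hall_pPrimePCoreOf`, `Od`), so `H D` has odd order and
is normalized by `V`; `P` = a `V`-invariant Sylow 3-subgroup of `H D` containing `D` (`H39.exists_inv_sylIn_ge`).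
`P ⊓ H` is Sylow in `H` (`SylIn.inf_normal_of_le`); if `v ∈ V` centralizes `P` then `v ∈ H`
(`pconstrained_cent_le`), so `v = 1`. -/
theorem exists_P (hc : Con G) {D V : Subgroup G} (hD : EA 3 D) {x : G} (hx : x ∈ D) (x1 : x ≠ 1)
    (ho : Od x) (hV : EA 2 V) (hVD : V ≤ 𝐂(D)) :
    ∃ P : Subgroup G, IsPGroup 3 P ∧ D ≤ P ∧ V ≤ 𝐍(P) ∧ ∀ v ∈ V, v ∈ 𝐂(P) → v = 1 := by
  haveI : Fact (Nat.Prime 3) := ⟨Nat.prime_three⟩
  have hn := normalIn_pPrimePCoreOf (p := 3) 𝐍(zpowers x)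
  have hH : PiGrp ({2}ᶜ : Set ℕ) (pPrimePCoreOf 3 𝐍(zpowers x)) :=
    (piGrp_compl_singleton_iff Nat.prime_two).2 fun hd => Nat.not_even_iff_odd.2 ho (even_iff_two_dvd.2
      ((p'core_Hall_pPrimePCoreOf (p := 3) 𝐍(zpowers x)).dvd_card Nat.prime_two (by simp) hd))
  have hDX : D ≤ 𝐍(zpowers x) := fun d hd => KM.cent_le_norm fun _ hy => comm_zp (hD.1 x hx d hd) hy
  have hVX : V ≤ 𝐍(zpowers x) := fun v hv =>
    KM.cent_le_norm fun _ hy => comm_zp (mem_cent.1 (hVD hv) x hx) hy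
  have hK := hH.sup' (piGrp_compl_of_isPGroup hD.isPGroup (by simp)) (hDX.trans hn.norm)
  obtain ⟨P, hP, hDP, hVP⟩ := H39.exists_inv_sylIn_ge
    (MSS.le_normalizer_sup (hVX.trans hn.norm) (le_norm_of_le_cent hVD))
    (hK.coprime_isPGroup' hV.isPGroup (Set.mem_singleton 2))
    (Or.inl (solvable_of_nilpotent (nilpotent_of_isPGroup hV.isPGroup))) le_sup_right hD.isPGroup
    (le_norm_of_le_cent hVD)
  refine ⟨P, hP.pgroup, hDP, hVP, fun v hv hc' => ?_⟩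
  have h1 := pconstrained_cent_le (hc _ (ea_zp (hD.2 x hx)).isPGroup (by simpa using x1))
    (hP.inf_normal_of_le (sup_le (le_norm_self _) (hDX.trans hn.norm)) le_sup_left)
    ⟨hVX hv, centS inf_le_left hc'⟩
  exact mem_bot.1 ((hH.inf_eq_bot' (piGrp_of_isPGroup hV.isPGroup (Set.mem_singleton 2))).le ⟨h1, hv⟩)

/-- copy `CL.KM.exists_E` (SIG/KMBasic) with `P` from `exists_P`. -/
theorem exists_E (hc : Con G) {D V : Subgroup G} (hD : EA 3 D) {x : G} (hx : x ∈ D) (x1 : x ≠ 1)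
    (ho : Od x) (hV : EA 2 V) (hVD : V ≤ 𝐂(D)) :
    ∃ E : Subgroup G, EA 3 E ∧ D ≤ E ∧ V ≤ 𝐍(E) ∧ ∀ v ∈ V, v ∈ 𝐂(E) → v = 1 := by
  haveI : Fact (Nat.Prime 3) := ⟨Nat.prime_three⟩
  have hp2 : (3 : ℕ) ≠ 2 := by norm_num
  obtain ⟨P, hP, hDP, hVP, hCP⟩ := exists_P hc hD hx x1 ho hV hVD
  have hVN : V ≤ normalizer (D : Set G) := hVD.trans (centralizer_le_normalizer _)
  obtain ⟨E, ⟨hE, hDE, hEP, hVE⟩, hmax⟩ := Set.Finite.exists_maximal
    (s := {E : Subgroup G | EA 3 E ∧ D ≤ E ∧ E ≤ P ∧ V ≤ normalizer (E : Set G)})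
    (Set.toFinite _) ⟨D, hD, le_rfl, hDP, hVN⟩
  refine ⟨E, hE, hDE, hVE, fun v hv hvE => ?_⟩
  have v2 : v * v = 1 := by rw [← sq]; exact hV.2 v hv
  have vi : v⁻¹ = v := inv_eq_of_mul_eq_one_right v2
  have hC : ∀ k ∈ P ⊓ centralizer (E : Set G), Commute v k := by
    intro k hk
    by_contra hvk
    obtain ⟨H, hHV, hi, hvH, c, ⟨hc, hcH⟩, hvc⟩ := exists_hyp (Ne.symm hp2) hV
      (hP.to_le (inf_le_left : P ⊓ centralizer (E : Set G) ≤ P))
      (fun g hg => norm_inf_cent (hVP hg) (hVE hg)) hv hk hvk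
    have hvn : v ∈ normalizer (((P ⊓ centralizer (E : Set G)) ⊓ centralizer (H : Set G) :
        Subgroup G) : Set G) :=
      norm_inf_cent (norm_inf_cent (hVP hv) (hVE hv))
        (KM.cent_le_norm fun a ha => hV.1 a (hHV ha) v hv)
    have hx : c⁻¹ * (v * c * v⁻¹) ∈ (P ⊓ centralizer (E : Set G)) ⊓ centralizer (H : Set G) :=
      mul_mem (inv_mem ⟨hc, hcH⟩) (conj_mem hvn ⟨hc, hcH⟩)
    have hx1 : c⁻¹ * (v * c * v⁻¹) ≠ 1 := fun h => hvc (by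
      rw [inv_mul_eq_one, eq_mul_inv_iff_mul_eq] at h; exact h.symm)
    have hinv : v * (c⁻¹ * (v * c * v⁻¹)) * v⁻¹ = (c⁻¹ * (v * c * v⁻¹))⁻¹ := by
      rw [vi]
      simp only [mul_inv_rev, inv_inv, vi, mul_assoc, v2, mul_one]
    generalize c⁻¹ * (v * c * v⁻¹) = x at hx hx1 hinv
    obtain ⟨k, hk⟩ := pg_elem hP hx.1.1
    obtain ⟨j, hj1, hjp⟩ := exists_pow_order hx1 hk
    have hy : x ^ j ∈ (P ⊓ centralizer (E : Set G)) ⊓ centralizer (H : Set G) := pow_mem hx j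
    have hyi : v * x ^ j * v⁻¹ = (x ^ j)⁻¹ := by rw [← conj_pow, hinv, inv_pow]
    generalize x ^ j = y at hy hyi hj1 hjp
    have hVy : V ≤ normalizer ((zpowers y : Subgroup G) : Set G) := by
      rw [← PCyc.sup_zpowers_eq_of_relIndex_prime Nat.prime_two hHV hi hv hvH]
      refine sup_le (fun a ha => KM.cent_le_norm fun b hb => ?_) ((zpowers_le).2 (mem_norm ?_))
      · obtain ⟨i, rfl⟩ := mem_zpowers_iff.1 hb
        exact (mem_cent.1 hy.2 a ha).symm.zpow_left i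
      · intro b hb
        obtain ⟨i, rfl⟩ := mem_zpowers_iff.1 hb
        rw [← conj_zpow, hyi]
        exact zpow_mem (inv_mem (mem_zpowers y)) i
    have hle : E ⊔ zpowers y ≤ E := hmax ⟨hE.sup_zpowers hjp (mem_cent.1 hy.1.2),
      hDE.trans le_sup_left, sup_le hEP ((zpowers_le).2 hy.1.1),
      fun g hg => normalizer_inf_normalizer_le_normalizer_sup _ _ ⟨hVE hg, hVy hg⟩⟩ le_sup_left
    have hyE : y ∈ E := hle (mem_sup_right (mem_zpowers y))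
    have : v * y * v⁻¹ = y := by rw [← (mem_cent.1 hvE y hyE).eq]; simp
    rw [this, eq_inv_iff_mul_eq_one] at hyi
    exact hj1 (eq_one_of_two_primes hp2 (k := 1) (l := 1) (by simpa using hjp)
      (by simpa [sq] using hyi))
  have hvz : EA 2 (zpowers v) := hV.mono ((zpowers_le).2 hv)
  have := thompson_p_times_q E (zpowers v) P hE.isPGroup
    (by simpa using (IsPGroup.coprime_card_of_ne 2 3 (Ne.symm hp2) (zpowers v)
      (⊤ : Subgroup (Multiplicative (ZMod 3))) hvz.isPGroup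
      (IsPGroup.of_card (n := 1) (by simp)))) hP
    (fun e he => mem_cent.2 fun s hs => by
      obtain ⟨i, rfl⟩ := mem_zpowers_iff.1 hs
      exact (mem_cent.1 hvE e he).symm.zpow_left i)
    (hEP.trans le_normalizer) ((zpowers_le).2 (hVP hv))
    (fun e he => mem_cent.2 fun s hs => by
      obtain ⟨i, rfl⟩ := mem_zpowers_iff.1 hs
      exact (hC e he).zpow_left i)
  exact hCP v hv (mem_cent.2 fun s hs => (mem_cent.1 (this hs) v (mem_zpowers v)).symm)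

/-- copy `CL.KM.exists_cent_inv` (SIG/KMStr). -/
theorem exists_cent_inv (hc : Con G) {D V : Subgroup G} (hD : EA 3 D) {x : G} (hx : x ∈ D) (x1 : x ≠ 1)
    (ho : Od x) (hV : EA 2 V) (hVD : V ≤ 𝐂(D)) (k : ℕ) (hk : 2 ^ k < #|V|) :
    ∃ (t : G) (A : Subgroup G), t ≠ 1 ∧ t * t = 1 ∧ EA 3 A ∧ (∀ a ∈ A, Commute a t) ∧
      3 ^ k * #|D| ≤ #|A| := by
  haveI : Fact (Nat.Prime 3) := ⟨Nat.prime_three⟩
  obtain ⟨E, hE, hDE, hVE, hf⟩ := exists_E hc hD hx x1 ho hV hVD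
  obtain ⟨t, ht, ht1, hle⟩ := exists_t (by norm_num) hE.isPGroup k hV hVE hf hk
  refine ⟨t, _, ht1, by rw [← sq]; exact hV.2 t ht, hE.mono inf_le_left,
    fun a ha => (mem_cent1.1 ha.2).symm, le_trans (Nat.mul_le_mul_left _ ?_) hle⟩
  exact card_le_of_le (le_inf hDE (le_centralizer_iff.1 hVD))

theorem exe_omZ {U : Subgroup G} (hU : IsPGroup 2 U) (hU0 : U ≠ ⊥) : ∃ z ∈ omZ U, z ≠ 1 := by
  have : Nontrivial U := (nontrivial_iff_ne_bot U).2 hU0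
  have := hU.center_nontrivial
  obtain ⟨⟨x, hx⟩, hx1⟩ := exists_ne (1 : center U)
  have hx1' : (x : G) ≠ 1 := fun h => hx1 (Subtype.ext (Subtype.ext h))
  obtain ⟨k, hk⟩ := pg_elem hU x.2
  obtain ⟨j, hj1, hj⟩ := exists_pow_order hx1' hk
  refine ⟨(x : G) ^ j, ⟨pow_mem x.2 j, pow_mem (mem_cent.2 fun s hs => ?_) j,
    by rw [← pow_two, hj]⟩, hj1⟩
  exact congrArg Subtype.val (mem_center_iff.1 hx ⟨s, hs⟩)

/-- as at the end of `klinger_mason` (SIG/KMMain): `z ∈ omZ T`, `z ≠ 1`.  If `A` centralizes `z`, done.  Else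
`exists_hyp` gives `B` of index 3 in `A` (so `B ≠ 1`) with `|C_{omZ T}(B)| > 2` (`two_lt_card`); `exists_cent_inv`
with `k = 1`. -/
theorem good_of (hc : Con G) {A T : Subgroup G} (hA : EA 3 A) (h9 : 9 ≤ #|A|)
    (ho : ∀ a ∈ A, a ≠ 1 → Od a) (hT : IsPGroup 2 T) (h0 : T ≠ ⊥) (hAT : A ≤ 𝐍(T)) :
    ∃ (z : G) (A' : Subgroup G), Good 3 #|A| z A' := by
  haveI : Fact (Nat.Prime 3) := ⟨Nat.prime_three⟩
  obtain ⟨z, hz, hz1⟩ := exe_omZ hT h0
  by_cases hcz : ∀ a ∈ A, Commute a z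
  · exact ⟨z, A, hz1, hz.2.2, hA, hcz, le_rfl⟩
  push Not at hcz
  obtain ⟨a, ha, haz⟩ := hcz
  have hAV : A ≤ 𝐍(omZ T) := fun a ha => omZ_norm T (hAT ha)
  obtain ⟨B, hB, hi, -, w, hw, haw⟩ := exists_hyp (by norm_num) hA (omZ_ea T).isPGroup hAV ha hz haz
  have hcard := card_eq_mul hB hi
  obtain ⟨b, hb, b1⟩ := exists_ne_one (A := B) (by omega)
  obtain ⟨t, A', h1, h2, h3, h4, h5⟩ := exists_cent_inv hc (hA.mono hB) hb b1 (ho b (hB hb) b1)
    ((omZ_ea T).mono inf_le_left) inf_le_right 1 (two_lt_card hw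
      (conj_mem (norm_inf_cent (hAV ha) (KM.cent_le_norm fun b hb => hA.1 b (hB hb) a ha)) hw) haw)
  exact ⟨t, A', h1, h2, h3, h4, by rw [hcard]; simpa using h5⟩

end CL.M23
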