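import Cfsg.Agent.INV.M23.ExE

/-! The Klinger-Mason bound. -/

set_option autoImplicit false
set_option linter.style.haveILetI false
set_option linter.unusedSectionVars false
open Subgroup Cfsg CL.MSS CL.BG CL.KM CL.K3

namespace CL.M23
variable {G : Type*} [Group G] [Finite G]

section
open scoped commutatorElement

/-- the hypotheses of the Klinger-Mason method, with the dihedral lemma as a hypothesis -/
structure Hq (G : Type*) [Group G] (p n : ℕ) : Prop where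
  p2 : p ≠ 2
  loc2 : IsCharacteristicTwoType G
  big : p < n
  max : ∀ (t : G) (A : Subgroup G), t ≠ 1 → t * t = 1 → EA p A → (∀ a ∈ A, Commute a t) →
    Nat.card A ≤ n
  exE : ∀ {z : G} {A D V : Subgroup G}, Good p n z A → D ≤ A → D ≠ ⊥ → EA 2 V → V ≤ 𝐂(D) →
    ∃ E : Subgroup G, EA p E ∧ D ≤ E ∧ V ≤ 𝐍(E) ∧ ∀ v ∈ V, v ∈ 𝐂(E) → v = 1

theorem km_ne2 {p n : ℕ} (hb : p ^ 2 < n) {A B : Subgroup G} (hA : n ≤ Nat.card A)
    (hB : Nat.card A ≤ p ^ 2 * Nat.card B) : B ≠ ⊥ := by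
  rintro rfl
  simp at hB
  omega

theorem Hq.ne1 {p n : ℕ} (h : Hq G p n) {A B : Subgroup G} (hA : n ≤ Nat.card A)
    (hB : Nat.card A ≤ p * Nat.card B) : B ≠ ⊥ := by
  rintro rfl
  have := h.big
  simp at hB
  omega

variable {p n : ℕ} [hp : Fact p.Prime]

theorem Hq.odd (h : Hq G p n) : Odd p := hp.out.odd_of_ne_two h.p2

theorem Hq.eci (h : Hq G p n) {z : G} {A D V : Subgroup G} (g : Good p n z A) (hD : D ≤ A) (hD0 : D ≠ ⊥)
    (hV : EA 2 V) (hVD : V ≤ 𝐂(D)) (k : ℕ) (hk : 2 ^ k < Nat.card V) :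
    ∃ (t : G) (A : Subgroup G), t ≠ 1 ∧ t * t = 1 ∧ EA p A ∧ (∀ a ∈ A, Commute a t) ∧
      p ^ k * Nat.card D ≤ Nat.card A := by
  obtain ⟨E, hE, hDE, hVE, hf⟩ := h.exE g hD hD0 hV hVD
  obtain ⟨t, ht, ht1, hle⟩ := exists_t h.p2 hE.isPGroup k hV hVE hf hk
  refine ⟨t, _, ht1, by rw [← sq]; exact hV.2 t ht, hE.mono inf_le_left,
    fun a ha => (mem_cent1.1 ha.2).symm, le_trans (Nat.mul_le_mul_left _ ?_) hle⟩
  exact card_le_of_le (le_inf hDE (le_centralizer_iff.1 hVD))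

theorem Hq.inv_le (h : Hq G p n) {z : G} {A V : Subgroup G} (g : Good p n z A)
    (hV : EA 2 V) (hVz : ∀ v ∈ V, Commute v z) (hAV : A ≤ normalizer (V : Set G)) :
    ∀ v ∈ V, v = 1 ∨ v = z := by
  have hp1 := hp.out.one_lt
  have hV' : EA 2 (V ⊔ zpowers z) := hV.sup_zpowers (by rw [pow_two, g.sq]) hVz
  have hAV' : A ≤ normalizer ((V ⊔ zpowers z : Subgroup G) : Set G) := fun a ha =>
    normalizer_inf_normalizer_le_normalizer_sup _ _ ⟨hAV ha, KM.cent_le_norm fun b hb => by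
      obtain ⟨i, rfl⟩ := mem_zpowers_iff.1 hb
      exact (g.comm a ha).symm.zpow_left i⟩
  have hz : z ∈ V ⊔ zpowers z := mem_sup_right (mem_zpowers z)
  have hA0 : 0 < Nat.card A := Nat.card_pos
  by_cases hc : ∀ a ∈ A, ∀ v ∈ V ⊔ zpowers z, Commute a v
  · intro v hv
    by_contra hne
    push Not at hne
    have h3 : 2 ^ 1 < Nat.card (V ⊔ zpowers z : Subgroup G) := by
      classical
      have := card_ge_of_finset (V := V ⊔ zpowers z) {v, z, 1} (by
        simp only [Finset.mem_insert, Finset.mem_singleton]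
        rintro x (rfl | rfl | rfl)
        exacts [mem_sup_left hv, hz, one_mem _])
      rw [Finset.card_eq_three.2 ⟨_, _, _, hne.2, hne.1, g.ne, rfl⟩] at this
      omega
    obtain ⟨t, A', h1, h2, h3, h4, h5⟩ := h.eci g le_rfl
      (h.ne1 g.big (Nat.le_mul_of_pos_left _ hp.out.pos)) hV'
      (fun v hv => mem_cent.2 fun a ha => hc a ha v hv) 1 h3
    have := h.max t A' h1 h2 h3 h4
    have := g.big
    rw [pow_one] at h5
    nlinarith
  · exfalso
    push Not at hc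
    obtain ⟨a, ha, v, hv, hav⟩ := hc
    obtain ⟨B, hBA, hi, -, w, hw, haw⟩ := exists_hyp h.p2 g.ea hV'.isPGroup hAV' ha hv hav
    have hcard := card_eq_mul hBA hi
    have h4 : 2 ^ 2 < Nat.card ((V ⊔ zpowers z) ⊓ centralizer (B : Set G) : Subgroup G) :=
      four_lt_card h.odd ⟨hz, mem_cent.2 fun b hb => g.comm b (hBA hb)⟩ hw
        (conj_mem (norm_inf_cent (hAV' ha) (KM.cent_le_norm fun b hb => g.ea.1 b (hBA hb) a ha)) hw)
        g.ne g.sq (g.ea.2 a ha) (g.comm a ha) haw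
    obtain ⟨t, A', h1, h2, h3, h4, h5⟩ := h.eci g hBA (h.ne1 g.big hcard.le)
      (hV'.mono inf_le_left) inf_le_right 2 h4
    have := h.max t A' h1 h2 h3 h4
    have := g.big
    have : p * Nat.card A ≤ Nat.card A' := by rw [hcard, ← mul_assoc, ← pow_two]; exact h5
    nlinarith

theorem Hq.invZ (h : Hq G p n) {z : G} {A R : Subgroup G} (g : Good p n z A)
    (hRz : ∀ v ∈ R, Commute v z) (hAR : A ≤ normalizer (R : Set G)) {x : G} (hx : x ∈ R)
    (hc : x ∈ centralizer (R : Set G)) (h2 : x * x = 1) : x = 1 ∨ x = z :=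
  h.inv_le g (omZ_ea R) (fun v hv => hRz v hv.1) (fun _ ha => omZ_norm R (hAR ha)) x ⟨hx, hc, h2⟩

theorem Hq.cent_center (h : Hq G p n) {z : G} {A R : Subgroup G} (g : Good p n z A)
    (hR : IsPGroup 2 R) (hRz : ∀ v ∈ R, Commute v z) (hAR : A ≤ normalizer (R : Set G))
    {a x : G} (ha : a ∈ A) (hx : x ∈ R) (hc : x ∈ centralizer (R : Set G)) : Commute a x := by
  obtain ⟨k, hk⟩ := pg_elem hR hx
  induction k generalizing x with
  | zero => rw [pow_zero, pow_one] at hk; rw [hk]; exact Commute.one_right _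
  | succ k ih =>
    have h2 := ih (mul_mem hx hx) (mul_mem hc hc) (by rw [← pow_two, ← pow_mul, ← pow_succ', hk])
    have hx' := conj_mem (hAR ha) hx
    have hc' := conj_mem_cent (hAR ha) hc
    have hsq : (a * x * a⁻¹ * x⁻¹) * (a * x * a⁻¹ * x⁻¹) = 1 := by
      rw [(mem_cent.1 (inv_mem hc) _ hx').symm.mul_mul_mul_comm, conj_mul, h2.eq]
      group
    rcases h.invZ g hRz hAR (mul_mem hx' (inv_mem hx)) (mul_mem hc' (inv_mem hc)) hsq with e | e
    · rw [mul_inv_eq_one, mul_inv_eq_iff_eq_mul] at e; exact e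
    · rw [mul_inv_eq_iff_eq_mul] at e
      refine commute_of_sq h.odd (g.ea.2 a ha) ?_
      have haz : a * z * a⁻¹ = z := by rw [(g.comm a ha).eq]; simp
      have : (a * a) * x * (a * a)⁻¹ = x := by
        calc (a * a) * x * (a * a)⁻¹ = a * (a * x * a⁻¹) * a⁻¹ := by group
          _ = (a * z * a⁻¹) * (a * x * a⁻¹) := by (conv_lhs => rw [e]); group
          _ = x := by rw [e, haz, ← mul_assoc, g.sq, one_mul]
      rw [mul_inv_eq_iff_eq_mul] at this; exact this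

theorem Hq.exists_st (h : Hq G p n) {z : G} {A : Subgroup G} (g : Good p n z A) :
    ∃ K : Subgroup G, St z A K := by
  have zi : z⁻¹ = z := inv_eq_of_mul_eq_one_right g.sq
  have hzE : EA 2 (zpowers z) := by
    simpa using (show EA 2 (⊥ : Subgroup G) from
      ⟨fun a ha b _ => by rw [mem_bot.1 ha]; exact Commute.one_left _,
        fun a ha => by rw [mem_bot.1 ha, one_pow]⟩).sup_zpowers (y := z) (by rw [pow_two, g.sq])
      (fun a ha => by rw [mem_bot.1 ha]; exact Commute.one_left _)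
  have hzn : ∀ x, Commute x z → x ∈ normalizer ((zpowers z : Subgroup G) : Set G) :=
    fun x hx => KM.cent_le_norm fun b hb => by
      obtain ⟨i, rfl⟩ := mem_zpowers_iff.1 hb
      exact hx.symm.zpow_left i
  obtain ⟨Q, hQ, hzQ, hQN, hNQ, hCQ⟩ := core_ambient hzE.isPGroup
    (h.loc2.2 _ hzE.isPGroup (by simpa using g.ne))
  have hQz : ∀ x ∈ Q, Commute x z := fun x hx => by
    rcases h.inv_le g hzE (fun v hv => hzE.1 v hv z (mem_zpowers z))
      (fun a ha => hzn a (g.comm a ha)) _ (conj_mem (hQN hx) (mem_zpowers z)) with e | e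
    · exact (g.ne (by simpa using e)).elim
    · rw [mul_inv_eq_iff_eq_mul] at e; exact e
  obtain ⟨T, hTQ, -, hNT, hcomm, hpow, hself, hfaith⟩ := PG.exists_critical_ambient hQ
  have hT : IsPGroup 2 T := hQ.to_le hTQ
  have hTz : ∀ x ∈ T, Commute x z := fun x hx => hQz x (hTQ hx)
  have hzT : z ∈ T := hself ⟨hzQ (mem_zpowers z), mem_cent.2 hTz⟩
  have hnT : ∀ x, Commute x z → x ∈ normalizer (T : Set G) := fun x hx => hNT (hNQ (hzn x hx))
  have hAT : A ≤ normalizer (T : Set G) := fun a ha => hnT a (g.comm a ha)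
  have hc : ∀ x ∈ T, ∀ y ∈ T, ⁅x, y⁆ = 1 ∨ ⁅x, y⁆ = z := fun x hx y hy => by
    have hm := hcomm (commutator_mem_commutator hx (hTQ hy))
    refine h.invZ g hTz hAT hm.1 hm.2 ?_
    have h1 : x * y * x⁻¹ = ⁅x, y⁆ * y := by rw [commutatorElement_def]; group
    have h2 : x * ⁅x, y⁆ * x⁻¹ = ⁅x, y⁆ := by rw [(mem_cent.1 hm.2 x hx).eq]; simp
    have h3 : (x * x) * y * (x * x)⁻¹ = y := by
      rw [← (mem_cent.1 (pow_two x ▸ hpow x hx) y hy).eq, mul_inv_cancel_right]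
    have h4 : ⁅x, y⁆ * ⁅x, y⁆ * y = y := by
      calc ⁅x, y⁆ * ⁅x, y⁆ * y = (x * ⁅x, y⁆ * x⁻¹) * (x * y * x⁻¹) := by rw [h2, h1, mul_assoc]
        _ = x * (⁅x, y⁆ * y) * x⁻¹ := by group
        _ = y := by rw [← h1]; (conv_rhs => rw [← h3]); group
    simpa using h4
  let K : Subgroup G :=
    { carrier := {x | x ∈ T ∧ (x * x = 1 ∨ x * x = z)}
      one_mem' := ⟨one_mem _, Or.inl (one_mul _)⟩
      mul_mem' := fun {a b} ha hb => ⟨mul_mem ha.1 hb.1, by
        rw [sq_mul_eq]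
        rcases ha.2 with e1 | e1 <;> rcases hb.2 with e2 | e2 <;>
          rcases hc _ (inv_mem ha.1) _ hb.1 with e3 | e3 <;> simp [e1, e2, e3, g.sq]⟩
      inv_mem' := fun {a} ha => ⟨inv_mem ha.1, by
        rw [← mul_inv_rev]
        rcases ha.2 with e | e <;> simp [e, zi]⟩ }
  have hKT : K ≤ T := fun x hx => hx.1
  have hK : IsPGroup 2 K := hT.to_le hKT
  have hKz : ∀ x ∈ K, Commute x z := fun x hx => hTz x hx.1
  have hnK : ∀ x, Commute x z → x ∈ normalizer (K : Set G) := fun x hx =>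
    mem_norm fun y hy => ⟨conj_mem (hnT x hx) hy.1, by
      rw [conj_mul]
      rcases hy.2 with e | e
      · left; simp [e]
      · right; rw [e, hx.eq]; simp⟩
  have hAK : A ≤ normalizer (K : Set G) := fun a ha => hnK a (g.comm a ha)
  refine ⟨K, hK, ⟨hzT, Or.inl g.sq⟩, hKz, hnK, fun x hx y hy => hc x hx.1 y hy.1,
    fun x hx => hx.2, fun x hx h1 h2 => h.invZ g hKz hAK hx h1 h2, fun B hB hKB => ?_⟩
  have hBp : IsPGroup p B := (g.ea.mono hB).isPGroup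
  have cop : ∀ X : Subgroup G, IsPGroup 2 X → (Nat.card B).Coprime (Nat.card X) := fun X hX =>
    IsPGroup.coprime_card_of_ne p 2 h.p2 B X hBp hX
  have h1 : K ≤ centralizer (B : Set G) :=
    coprime_le_centralizer_of_trivial_on_factors B K (K ⊓ centralizer (K : Set G))
      (fun b hb => norm_inf_cent (hAK (hB hb)) (hAK (hB hb))) (cop _ (hK.to_le inf_le_left))
      (fun x hx => mem_cent.2 fun b hb => h.cent_center g hK hKz hAK (hB hb) hx.1 hx.2)
      (le_inf (commutator_le.2 fun x hx b hb => by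
        rw [commutatorElement_def, mul_assoc, mul_assoc, ← mul_assoc b]
        exact mul_mem hx (conj_mem (hAK (hB hb)) (inv_mem hx))) hKB)
  have h2 : ⁅T, B⁆ ≤ K := commutator_le.2 fun s hs b hb => by
    have hs' := conj_mem (hAT (hB hb)) (inv_mem hs)
    have e : ⁅s, b⁆ = s * (b * s⁻¹ * b⁻¹) := by rw [commutatorElement_def]; group
    refine ⟨e ▸ mul_mem hs hs', ?_⟩
    have hss : s * s ∈ centralizer (T : Set G) := pow_two s ▸ hpow s hs
    have e2 : (b * s⁻¹ * b⁻¹) * (b * s⁻¹ * b⁻¹) = (s * s)⁻¹ := by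
      rw [conj_mul, ← mul_inv_rev,
        (h.cent_center g hT hTz hAT (hB hb) (mul_mem hs hs) hss).inv_right.eq]
      simp
    rw [e, sq_mul_eq, e2]
    rcases hc _ (inv_mem hs) _ hs' with e3 | e3
    · left; rw [e3]; simp
    · right; rw [e3, ← (mem_cent.1 hss z hzT).eq, mul_inv_cancel_right]
  have hsolv : Group.IsSolvable T := by
    have := hT.isNilpotent
    infer_instance
  have h3 : T ≤ centralizer (B : Set G) :=
    coprime_le_centralizer_of_commutator_le B T (hB.trans hAT) (cop _ hT) (Or.inr hsolv)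
      (h2.trans h1)
  refine (eq_bot_iff_forall B).2 fun b hb => ?_
  have hbp : b ^ p = 1 := g.ea.2 b (hB hb)
  have hbQ : b ∈ Q := hCQ b (hzn b (g.comm b (hB hb))) (hfaith b (hNQ (hzn b (g.comm b (hB hb))))
    (Nat.Coprime.coprime_dvd_left (orderOf_dvd_of_pow_eq_one hbp)
      ((Nat.coprime_primes hp.out Nat.prime_two).2 h.p2)) (le_centralizer_iff.1 h3 hb))
  obtain ⟨k, hk⟩ := pg_elem hQ hbQ
  exact eq_one_of_two_primes h.p2 (k := 1) (by simpa using hbp) hk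

theorem Hq.exists_R (h : Hq G p n) {z : G} {A K S : Subgroup G} (g : Good p n z A)
    (st : St z A K) (hSK : S ≤ K) (hAS : A ≤ normalizer (S : Set G)) {a c : G} (ha : a ∈ A)
    (hc : c ∈ S) (hac : ¬ Commute a c) :
    ∃ R : Subgroup G, R ≤ S ∧ A ≤ normalizer (R : Set G) ∧
      (∀ x ∈ K, Commute a x → ∀ r ∈ R, Commute x r) ∧
      (∃ x ∈ R, ¬ Commute a x ∧ x * x = z) ∧ ∃ u ∈ R, ∃ v ∈ R, ¬ Commute u v := by
  have haA : zpowers a ≤ A := zpowers_le.2 ha
  have hRS : ⁅S, zpowers a⁆ ≤ S := le_normalizer_iff_commutator_le_left.1 (haA.trans hAS)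
  have hAR : A ≤ normalizer ((⁅S, zpowers a⁆ : Subgroup G) : Set G) := fun b hb =>
    norm_comm (hAS hb) (KM.cent_le_norm fun x hx => g.ea.1 x (haA hx) b hb)
  have hcR : ∀ x ∈ K, Commute a x → ∀ r ∈ ⁅S, zpowers a⁆, Commute x r := fun x hx hax r hr => by
    refine mem_cent1.1 ((commutator_le.2 fun s hs b hb => mem_cent1.2 ?_ :
      ⁅S, zpowers a⁆ ≤ centralizer ({x} : Set G)) hr)
    have hbx : Commute b x := by
      obtain ⟨i, rfl⟩ := mem_zpowers_iff.1 hb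
      exact hax.zpow_left i
    have e : ⁅s, b⁆ = s * (b * s⁻¹ * b⁻¹) := by rw [commutatorElement_def]; group
    have hxb : b * x * b⁻¹ = x := by rw [hbx.eq]; simp
    rw [e, st.mul_iff g.ne g.sq hx (hSK hs) (hSK (conj_mem (hAS (haA hb)) (inv_mem hs)))]
    constructor
    · intro h1
      have := comm_conj (g := b) h1.inv_right
      rwa [hxb] at this
    · intro h1
      rw [← hxb] at h1
      have := comm_conj (g := b⁻¹) h1
      simpa [mul_assoc] using this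
  obtain ⟨y, hy, hay⟩ : ∃ y ∈ ⁅S, zpowers a⁆, ¬ Commute a y := by
    by_contra hcon
    push Not at hcon
    have hS : IsPGroup 2 S := st.pg.to_le hSK
    have hsolv : Group.IsSolvable S := by
      have := hS.isNilpotent
      infer_instance
    have := coprime_le_centralizer_of_commutator_le (zpowers a) S (haA.trans hAS)
      (IsPGroup.coprime_card_of_ne p 2 h.p2 _ _ (g.ea.mono haA).isPGroup hS) (Or.inr hsolv)
      (fun y hy => mem_cent.2 fun b hb => by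
        obtain ⟨i, rfl⟩ := mem_zpowers_iff.1 hb
        exact (hcon y hy).zpow_left i)
    exact hac (mem_cent.1 (this hc) a (mem_zpowers a))
  have hna : ∃ u ∈ ⁅S, zpowers a⁆, ∃ v ∈ ⁅S, zpowers a⁆, ¬ Commute u v := by
    by_contra hcon
    push Not at hcon
    exact hay (h.cent_center g (st.pg.to_le (hRS.trans hSK)) (fun v hv => st.le v (hSK (hRS hv)))
      hAR ha hy (mem_cent.2 fun s hs => hcon s hs y hy))
  refine ⟨_, hRS, hAR, hcR, ?_, hna⟩
  by_contra hcon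
  push Not at hcon
  have h1 : ∀ x ∈ ⁅S, zpowers a⁆, ¬ Commute a x → x * x = 1 := fun x hx hax =>
    (st.sq x (hSK (hRS hx))).resolve_right (hcon x hx hax)
  have h2 : ∀ x ∈ ⁅S, zpowers a⁆, x * x = 1 := fun x hx => by
    by_cases hax : Commute a x
    · have h3 := h1 (x * y) (mul_mem hx hy) fun h' => hay (by
        simpa using hax.inv_right.mul_right h')
      rwa [(hcR x (hSK (hRS hx)) hax y hy).symm.mul_mul_mul_comm, h1 y hy hay, mul_one] at h3
    · exact h1 x hx hax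
  obtain ⟨u, hu, v, hv, huv⟩ := hna
  refine huv ?_
  have e := h2 _ (mul_mem hu hv)
  rw [sq_mul_eq, h2 u hu, h2 v hv, one_mul, mul_one, commutatorElement_eq_one_iff_commute] at e
  simpa using e

theorem Hq.false (h : Hq G p n) (hb : p ^ 2 < n) {z : G} {A : Subgroup G} (g : Good p n z A) :
    False := by
  have hp1 := hp.out.one_lt
  obtain ⟨K, st⟩ := h.exists_st g
  have hAK : A ≤ normalizer (K : Set G) := fun a ha => st.norm a (g.comm a ha)
  have hnc : ∀ a ∈ A, a ≠ 1 → ∃ k ∈ K, ¬ Commute a k := fun a ha ha1 => by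
    by_contra hcon
    push Not at hcon
    have := st.faith (zpowers a) (zpowers_le.2 ha) (commutator_le.2 fun k hk b hb => by
      obtain ⟨i, rfl⟩ := mem_zpowers_iff.1 hb
      rw [commutatorElement_eq_one_iff_commute.2 ((hcon k hk).zpow_left i).symm]
      exact one_mem _)
    exact ha1 (by simpa using this)
  have ex : ∀ U : Subgroup G, U ≠ ⊥ → ∃ t ∈ U, t ≠ 1 := fun U h => by
    by_contra hc
    push Not at hc
    exact h ((eq_bot_iff_forall U).2 hc)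
  have hyp : ∀ a ∈ A, a ≠ 1 → ∃ B : Subgroup G, B ≤ A ∧ B.relIndex A = p ∧ a ∉ B ∧
      ∃ c ∈ K ⊓ centralizer (B : Set G), ¬ Commute a c := fun a ha ha1 => by
    obtain ⟨k, hk, hak⟩ := hnc a ha ha1
    exact exists_hyp h.p2 g.ea st.pg hAK ha hk hak
  have hAn : ∀ B ≤ A, A ≤ normalizer ((K ⊓ centralizer (B : Set G) : Subgroup G) : Set G) :=
    fun B hB a ha => norm_inf_cent (hAK ha) (KM.cent_le_norm fun b hb => g.ea.1 b (hB hb) a ha)
  obtain ⟨a0, ha0, ha01⟩ := ex A (km_ne2 hb g.big (Nat.le_mul_of_pos_left _ (by positivity)))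
  obtain ⟨B1, hB1, hi1, ha0B, c1, hc1, hac1⟩ := hyp a0 ha0 ha01
  have card1 := card_eq_mul hB1 hi1
  obtain ⟨a2, ha2, ha21⟩ := ex B1 (km_ne2 hb g.big (by
    rw [card1]; exact Nat.mul_le_mul_right _ (by nlinarith)))
  obtain ⟨B2, hB2, hi2, ha2B, c2, hc2, hac2⟩ := hyp a2 (hB1 ha2) ha21
  have card2 := card_eq_mul hB2 hi2
  obtain ⟨a1, ha1, ha1B⟩ : ∃ a1 ∈ B2, a1 ∉ B1 := by
    by_contra hcon
    push Not at hcon
    have : B2 = B1 := eq_of_le_of_card_ge hcon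
      (Nat.le_of_mul_le_mul_left (by rw [← card1, ← card2]) hp.out.pos)
    exact ha2B (this ▸ ha2)
  have hac1' : ¬ Commute a1 c1 := fun h' => hac1 (mem_cent1.1 ((show A ≤ centralizer {c1} by
    rw [← PCyc.sup_zpowers_eq_of_relIndex_prime hp.out hB1 hi1 (hB2 ha1) ha1B]
    exact sup_le (fun b hb => mem_cent1.2 (mem_cent.1 hc1.2 b hb).symm)
      (zpowers_le.2 (mem_cent1.2 h'.symm))) ha0)).symm
  have cardD : Nat.card A ≤ p ^ 2 * Nat.card (B1 ⊓ B2 : Subgroup G) := by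
    rw [card_eq_mul (inf_le_left.trans hB1 : B1 ⊓ B2 ≤ A) rfl]
    refine Nat.mul_le_mul_right _ (relIndex_inf_le.trans ?_)
    rw [hi1, hi2, pow_two]
  have hD0 := km_ne2 hb g.big cardD
  obtain ⟨d, hd, hd1⟩ := ex _ hD0
  obtain ⟨B3, hB3, -, -, c3, hc3, hac3⟩ := hyp d (hB1 hd.1) hd1
  obtain ⟨R1, hR1, hAR1, hcR1, ⟨x1, hx1, hax1, hxx1⟩, na1⟩ :=
    h.exists_R g st inf_le_left (hAn B1 hB1) (hB2 ha1) hc1 hac1'
  obtain ⟨R2, hR2, hAR2, -, ⟨x2, hx2, hax2, hxx2⟩, na2⟩ :=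
    h.exists_R g st inf_le_left (hAn B2 hB2) (hB1 ha2) hc2 hac2
  obtain ⟨R3, hR3, -, hcR3, -, na3⟩ :=
    h.exists_R g st inf_le_left (hAn B3 hB3) (hB1 hd.1) hc3 hac3
  have c12 : ∀ a ∈ R1, ∀ b ∈ R2, Commute a b := fun a ha b hb =>
    (hcR1 b (hR2 hb).1 (mem_cent.1 (hR2 hb).2 a1 ha1) a ha).symm
  -- choose `a`
  have k1 := (hR1 hx1).1
  have k2 := (hR2 hx2).1
  obtain ⟨a, ha, hav, hcv⟩ : ∃ a ∈ A, ¬ Commute a (x1 * x2) ∧
      Commute (x1 * x2) (a * (x1 * x2) * a⁻¹) := by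
    have f1 : Commute a1 x2 := mem_cent.1 (hR2 hx2).2 a1 ha1
    have f2 : Commute a2 x1 := mem_cent.1 (hR1 hx1).2 a2 ha2
    have y1 := conj_mem (hAR1 (hB2 ha1)) hx1
    have y2 := conj_mem (hAR2 (hB1 ha2)) hx2
    have e1 : a1 * (x1 * x2) * a1⁻¹ = (a1 * x1 * a1⁻¹) * x2 := by
      rw [← conj_mul, f1.eq, mul_inv_cancel_right]
    have e2 : a2 * (x1 * x2) * a2⁻¹ = x1 * (a2 * x2 * a2⁻¹) := by
      rw [← conj_mul, f2.eq, mul_inv_cancel_right]
    by_cases h1 : Commute x1 (a1 * x1 * a1⁻¹)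
    · refine ⟨a1, hB2 ha1, fun h' => hax1 (by simpa using h'.mul_right f1.inv_right), ?_⟩
      rw [e1]
      exact (h1.mul_right (c12 _ hx1 _ hx2)).mul_left
        ((c12 _ y1 _ hx2).symm.mul_right (Commute.refl _))
    by_cases h2 : Commute x2 (a2 * x2 * a2⁻¹)
    · refine ⟨a2, hB1 ha2, fun h' => hax2 (by simpa using f2.inv_right.mul_right h'), ?_⟩
      rw [e2]
      exact ((Commute.refl _).mul_right (c12 _ hx1 _ y2)).mul_left
        ((c12 _ hx1 _ hx2).symm.mul_right h2)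
    have f3 : Commute a1 (a2 * x2 * a2⁻¹) := mem_cent.1 (hR2 y2).2 a1 ha1
    have e3 : (a1 * a2) * (x1 * x2) * (a1 * a2)⁻¹ = (a1 * x1 * a1⁻¹) * (a2 * x2 * a2⁻¹) := by
      calc (a1 * a2) * (x1 * x2) * (a1 * a2)⁻¹ = a1 * (a2 * (x1 * x2) * a2⁻¹) * a1⁻¹ := by group
        _ = _ := by rw [e2, ← conj_mul, f3.eq, mul_inv_cancel_right]
    refine ⟨a1 * a2, mul_mem (hB2 ha1) (hB1 ha2), fun h' => h1 ?_, ?_⟩
    · rw [h'.eq, mul_inv_cancel_right] at e3
      have : a1 * x1 * a1⁻¹ = x1 * (x2 * (a2 * x2 * a2⁻¹)⁻¹) := by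
        rw [← mul_assoc, e3, mul_inv_cancel_right]
      rw [this]
      exact (Commute.refl _).mul_right (c12 _ hx1 _ (mul_mem hx2 (inv_mem y2)))
    · rw [e3, st.mul_iff g.ne g.sq (mul_mem k1 k2) (hR1 y1).1 (hR2 y2).1]
      refine iff_of_false (fun h' => h1 ?_) fun h' => h2 ?_
      · simpa using h'.mul_left (c12 _ y1 _ hx2).symm.inv_left
      · simpa using (c12 _ hx1 _ y2).inv_left.mul_left h'
  have hv2 : (x1 * x2) * (x1 * x2) = 1 := by
    rw [(c12 _ hx1 _ hx2).symm.mul_mul_mul_comm, hxx1, hxx2, g.sq]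
  have hvm : x1 * x2 ∈ K ⊓ centralizer ((B1 ⊓ B2 : Subgroup G) : Set G) :=
    mul_mem ⟨k1, centralizer_le (inf_le_left : B1 ⊓ B2 ≤ B1) (hR1 hx1).2⟩
      ⟨k2, centralizer_le (inf_le_right : B1 ⊓ B2 ≤ B2) (hR2 hx2).2⟩
  generalize x1 * x2 = v at hav hcv hv2 hvm
  have hvm' := conj_mem (hAn _ (inf_le_left.trans hB1) ha) hvm
  have hV : EA 2 (closure {z, v, a * v * a⁻¹}) := ea_closure _
    (by
      rintro x (rfl | rfl | rfl) y (rfl | rfl | rfl)
      exacts [Commute.refl _, (st.le _ hvm.1).symm, (st.le _ hvm'.1).symm, st.le _ hvm.1,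
        Commute.refl _, hcv, st.le _ hvm'.1, hcv.symm, Commute.refl _])
    (by
      rintro x (rfl | rfl | rfl)
      · rw [pow_two, g.sq]
      · rw [pow_two, hv2]
      · rw [pow_two, conj_mul, hv2]; simp)
  have hVK : closure {z, v, a * v * a⁻¹} ≤ K ⊓ centralizer ((B1 ⊓ B2 : Subgroup G) : Set G) :=
    (closure_le _).2 (by
      rintro x (rfl | rfl | rfl)
      exacts [⟨st.mem, mem_cent.2 fun b hb => g.comm b (hB1 hb.1)⟩, hvm, hvm'])
  have hzV : z ∈ closure {z, v, a * v * a⁻¹} := subset_closure (by simp)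
  have h4 := four_lt_card h.odd hzV (subset_closure (by simp)) (subset_closure (by simp))
    g.ne g.sq (g.ea.2 a ha) (g.comm a ha) hav
  generalize closure {z, v, a * v * a⁻¹} = V at hV hVK hzV h4
  obtain ⟨E, hE, hDE, hVE, hf⟩ := h.exE g (inf_le_left.trans hB1) hD0 hV
    (hVK.trans inf_le_right)
  obtain ⟨e0, he0, hze0⟩ : ∃ e ∈ E, ¬ Commute z e := by
    by_contra hc
    push Not at hc
    exact g.ne (hf z hzV (mem_cent.2 fun s hs => (hc s hs).symm))
  obtain ⟨U, hUV, hi, -, e, he, hze⟩ := exists_hyp (Ne.symm h.p2) hV hE.isPGroup hVE hzV he0 hze0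
  obtain ⟨t, ht, ht1, hle⟩ := exists_t h.p2 hE.isPGroup 1 (hV.mono hUV) (hUV.trans hVE)
    (fun v hv => hf v (hUV hv)) (by rw [card_eq_mul hUV hi] at h4; omega)
  have hle2 := step_card hE.isPGroup hUV hzV he hze
  have hle3 : Nat.card (B1 ⊓ B2 : Subgroup G) ≤
      Nat.card (E ⊓ centralizer (V : Set G) : Subgroup G) :=
    card_le_of_le (le_inf hDE (le_centralizer_iff.1 (hVK.trans inf_le_right)))
  have g' : Good p n t (E ⊓ centralizer ({t} : Set G)) :=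
    ⟨ht1, by rw [← pow_two]; exact hV.2 t (hUV ht), hE.mono inf_le_left,
      fun a ha => (mem_cent1.1 ha.2).symm, by
        refine g.big.trans (cardD.trans (le_trans ?_ hle))
        rw [pow_two, pow_one, mul_assoc]
        exact Nat.mul_le_mul_left _ (le_trans (Nat.mul_le_mul_left _ hle3) hle2)⟩
  obtain ⟨K', st'⟩ := h.exists_st g'
  have htK := hVK (hUV ht)
  refine final g st g' st' htK.1 (mem_norm fun x hx => ⟨conj_mem (hVE hzV) hx.1,
    mem_cent1.2 ?_⟩) ⟨he.1, mem_cent1.2 (mem_cent.1 he.2 t ht)⟩ hze (fun x hx hx' => ?_) ?_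
  · have hzt := st.le t htK.1
    exact (hzt.mul_right (mem_cent1.1 hx.2)).mul_right hzt.inv_right
  · obtain ⟨k, hk⟩ := pg_elem st'.pg hx'
    exact eq_one_of_two_primes h.p2 (k := 1) (by simpa using hE.2 x hx.1) hk
  · intro S hS
    have hcd : ∀ x ∈ K ⊓ centralizer ((B1 ⊓ B2 : Subgroup G) : Set G), ∀ r ∈ R3, Commute x r :=
      fun x hx => hcR3 x hx.1 (mem_cent.1 hx.2 d hd)
    have h12 : R1 ⊔ R2 ≤ K ⊓ centralizer ((B1 ⊓ B2 : Subgroup G) : Set G) :=
      sup_le (hR1.trans (inf_le_inf_left _ (centralizer_le (inf_le_left : B1 ⊓ B2 ≤ B1))))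
        (hR2.trans (inf_le_inf_left _ (centralizer_le (inf_le_right : B1 ⊓ B2 ≤ B2))))
    have n12 := idx2 (S := centralizer ({t} : Set G)) (H := K) (fun a ha b hb ha' hb' => by
      rw [mem_cent1] at ha' hb' ⊢
      exact (st.mul_iff g.ne g.sq htK.1 ha hb).2 (iff_of_false ha' hb'))
      (hR1.trans inf_le_left) (hR2.trans inf_le_left) c12 na1 na2
    have l1 : centralizer ({t} : Set G) ⊓ (R1 ⊔ R2) ≤ K ⊓ centralizer ({t} : Set G) :=
      fun x hx => ⟨(h12 hx.2).1, hx.1⟩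
    have l2 : R3 ≤ K ⊓ centralizer ({t} : Set G) :=
      fun x hx => ⟨(hR3 hx).1, mem_cent1.2 (hcd t htK x hx)⟩
    obtain ⟨a, ha, b, hb, hab⟩ := idx2 hS l1 l2 (fun a ha b hb => hcd a (h12 ha.2) b hb) n12 na3
    exact ⟨a, ⟨ha.1, sup_le l1 l2 ha.2⟩, b, ⟨hb.1, sup_le l1 l2 hb.2⟩, hab⟩

end

theorem Hy.hq (h : Hy G) {n : ℕ} (h9 : 9 ≤ n)
    (hm : ∀ (t : G) (A : Subgroup G), t ≠ 1 → t * t = 1 → EA 3 A → (∀ a ∈ A, Commute a t) → #|A| ≤ n) :
    Hq G 3 n :=
  ⟨by norm_num, h.c2, by omega, hm, fun g hD h0 hV hVD => by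
    obtain ⟨d, hd, d1⟩ := exists_mem_ne_one h0
    exact exists_E h.con (g.ea.mono hD) hd d1
      (h.od_of_good ⟨g.ne, g.sq, g.ea, g.comm, h9.trans g.big⟩ (hD hd)) hV hVD⟩

theorem km_inv {t : G} {B : Subgroup G} (h1 : t ≠ 1) (h2 : t * t = 1) (h4 : ∀ a ∈ B, Commute a t) :
    ∃ U : Subgroup G, IsPGroup 2 U ∧ U ≠ ⊥ ∧ B ≤ 𝐍(U) :=
  ⟨zpowers t, isPGroup_zpowers (k := 1) (by rw [pow_one, pow_two, h2]), by simpa using h1,
    fun a ha => KM.cent_le_norm fun _ hb => comm_zp (h4 a ha).symm hb⟩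

/-- copy SIG/KMStr, SIG/KMMain (the theorems that use `Hyp`: `inv_le, invZ, cent_center, exists_st, exists_R,
Good.false, klinger_mason`) for `p = 3`; `exists_E`, `exists_cent_inv` are only used for `1 ≠ D ≤ A`, `|A| ≥ 27`
(`od_of_big`). -/
theorem Hy.km (h : Hy G) {A U : Subgroup G} (hA : EA 3 A) (hU : IsPGroup 2 U) (h0 : U ≠ ⊥)
    (hAU : A ≤ 𝐍(U)) : #|A| ≤ 9 := by
  haveI : Fact (Nat.Prime 3) := ⟨Nat.prime_three⟩
  by_contra hlt
  obtain ⟨B, ⟨hB, V, hV, hV0, hBV⟩, hmax⟩ := Set.exists_max_image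
    {A : Subgroup G | EA 3 A ∧ ∃ U : Subgroup G, IsPGroup 2 U ∧ U ≠ ⊥ ∧ A ≤ 𝐍(U)}
    (fun A : Subgroup G => Nat.card A) (Set.toFinite _) ⟨A, hA, U, hU, h0, hAU⟩
  have h1 : 9 < #|B| := lt_of_lt_of_le (not_le.1 hlt) (hmax _ ⟨hA, U, hU, h0, hAU⟩)
  have h27 : 27 ≤ #|B| := by
    obtain ⟨k, hk⟩ := hB.isPGroup.exists_card_eq
    rw [hk] at h1 ⊢
    exact (Nat.pow_le_pow_right (by norm_num) ((Nat.pow_lt_pow_iff_right (by norm_num : 1 < 3)).1
      (show 3 ^ 2 < 3 ^ k from h1)) : 3 ^ 3 ≤ 3 ^ k)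
  obtain ⟨z, A', g⟩ := good_of h.con hB h1.le (fun a ha _ => h.od_of_big hB h27 ha) hV hV0 hBV
  exact (h.hq h1.le fun t C h1 h2 h3 h4 => hmax C ⟨h3, km_inv h1 h2 h4⟩).false h1 g

theorem Hy.km' (h : Hy G) {t : G} {A : Subgroup G} (t1 : t ≠ 1) (t2 : t * t = 1) (hA : EA 3 A)
    (hc : ∀ a ∈ A, Commute a t) : #|A| ≤ 9 := by
  obtain ⟨U, hU, h0, hAU⟩ := km_inv t1 t2 hc
  exact h.km hA hU h0 hAU

end CL.M23
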