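import Cfsg.Agent.INV.M23.KM

/-! Lifting elementary abelian 3-subgroups. -/

set_option autoImplicit false
set_option linter.style.haveILetI false
set_option linter.unusedSectionVars false
open Subgroup Cfsg CL.MSS CL.BG CL.KM CL.K3

namespace CL.M23
variable {G : Type*} [Group G] [Finite G]

/-- as `CL.K3.E9.lift` (INV/K3/E9): `P` = a Sylow 3-subgroup of `X.comap φ`; `φ` is injective on `P`. -/
theorem lift {H K : Type*} [Group H] [Finite H] [Group K] (φ : H →* K) (hk : IsPGroup 2 φ.ker)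
    {X : Subgroup K} (hX : EA 3 X) (hr : X ≤ φ.range) :
    ∃ P : Subgroup H, EA 3 P ∧ P.map φ = X ∧ #|P| = #|X| := by
  haveI : Fact (Nat.Prime 3) := ⟨Nat.prime_three⟩
  haveI : Fact (Nat.Prime 2) := ⟨Nat.prime_two⟩
  obtain ⟨P, hP⟩ := exists_sylIn 3 (X.comap φ)
  have h1 := hP.map φ
  rw [map_comap_eq_self hr] at h1
  have h2 := h1.eq_of_isPGroup hX.isPGroup
  have inj : ∀ x ∈ P, φ x = 1 → x = 1 := fun x hx e => by
    obtain ⟨k, hk1⟩ := pg_elem hP.pgroup hx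
    obtain ⟨l, hl⟩ := pg_elem hk (show x ∈ φ.ker from e)
    exact eq_one_of_two_primes (by norm_num) hk1 hl
  refine ⟨P, ⟨fun a ha b hb => ?_, fun a ha => inj _ (pow_mem ha 3) ?_⟩, h2, ?_⟩
  · refine commutatorElement_eq_one_iff_commute.1 (inj _ ?_ ?_)
    · exact mul_mem (mul_mem (mul_mem ha hb) (inv_mem ha)) (inv_mem hb)
    · rw [map_commutatorElement]
      exact commutatorElement_eq_one_iff_commute.2 (hX.1 _ (hP.le ha) _ (hP.le hb))
  · rw [map_pow]; exact hX.2 _ (hP.le ha)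
  · rw [← h2]
    exact Nat.card_congr (Equiv.ofBijective (φ.subgroupMap P) ⟨(injective_iff_map_eq_one _).2 fun x e =>
      Subtype.ext (inj x x.2 (congrArg Subtype.val e)), φ.subgroupMap_surjective P⟩)

theorem lift2 {H K : Type*} [Group H] [Finite H] [Group K] (φ : H →* K) (hk : IsPGroup 2 φ.ker)
    {a b : H} (i : I2 (φ a) (φ b)) : ∃ a' b' : H, I2 a' b' ∧ φ a' = φ a ∧ φ b' = φ b := by
  obtain ⟨P, hP, e, -⟩ := lift φ hk i.ea (sup_le (zpowers_le.2 ⟨a, rfl⟩) (zpowers_le.2 ⟨b, rfl⟩))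
  obtain ⟨a', ha, ea⟩ := e.ge (mem_sup_left (mem_zpowers _))
  obtain ⟨b', hb, eb⟩ := e.ge (mem_sup_right (mem_zpowers _))
  exact ⟨a', b', I2.of_map (φ := φ) (by rw [ea, eb]; exact i) (hP.2 _ ha) (hP.2 _ hb) (hP.1 _ ha _ hb), ea, eb⟩

theorem lift3 {H K : Type*} [Group H] [Finite H] [Group K] (φ : H →* K) (hk : IsPGroup 2 φ.ker)
    {a b c : H} (i : I3 (φ a) (φ b) (φ c)) :
    ∃ a' b' c' : H, I3 a' b' c' ∧ φ a' = φ a ∧ φ b' = φ b ∧ φ c' = φ c := by
  obtain ⟨P, hP, e, -⟩ := lift φ hk i.ea (sup_le (sup_le (zpowers_le.2 ⟨a, rfl⟩) (zpowers_le.2 ⟨b, rfl⟩))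
    (zpowers_le.2 ⟨c, rfl⟩))
  obtain ⟨a', ha, ea⟩ := e.ge (mem_sup_left (mem_sup_left (mem_zpowers _)))
  obtain ⟨b', hb, eb⟩ := e.ge (mem_sup_left (mem_sup_right (mem_zpowers _)))
  obtain ⟨c', hc, ec⟩ := e.ge (mem_sup_right (mem_zpowers _))
  refine ⟨a', b', c', ⟨I2.of_map (φ := φ) (by rw [ea, eb]; exact i.toI2) (hP.2 _ ha) (hP.2 _ hb)
    (hP.1 _ ha _ hb), hP.2 _ hc, hP.1 _ ha _ hc, hP.1 _ hb _ hc, fun k l e' => i.nc k l ?_⟩, ea, eb, ec⟩
  rw [← ec, e', map_mul, map_pow, map_pow, ea, eb]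

theorem Hy.no27G (h : Hy G) {t a b c : G} (t1 : t ≠ 1) (t2 : t * t = 1)
    (i : I3 a b c) (ha : Commute a t) (hb : Commute b t) (hc : Commute c t) : False := by
  have h1 := h.km' t1 t2 i.ea fun x hx =>
    show Commute x t from mem_centralizer_singleton_iff.1 ((sup_le (sup_le
      (zpowers_le.2 (mem_centralizer_singleton_iff.2 ha)) (zpowers_le.2 (mem_centralizer_singleton_iff.2 hb)))
      (zpowers_le.2 (mem_centralizer_singleton_iff.2 hc)) : _ ≤ centralizer {t}) hx)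
  have h2 := i.card
  omega

/-- `lift` for `I3.ea` (inside the finite group `φ.range`, `I3.card`), `km'`. -/
theorem Hy.no27 (h : Hy G) {z : G} (z1 : z ≠ 1) (z2 : z * z = 1) {K : Type*} [Group K]
    (φ : (𝐂₁(z) : Subgroup G) →* K) (hk : IsPGroup 2 φ.ker) {a b c : (𝐂₁(z) : Subgroup G)}
    (i : I3 (φ a) (φ b) (φ c)) : False := by
  obtain ⟨a', b', c', i', -⟩ := lift3 φ hk i
  exact h.no27G z1 z2 (i'.map (subtype_injective _)) (mem_centralizer_singleton_iff.1 a'.2)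
    (mem_centralizer_singleton_iff.1 b'.2) (mem_centralizer_singleton_iff.1 c'.2)

/-- `km'` -/
theorem Hy.no27' (h : Hy G) {K : Type*} [Group K] (e : G ≃* K) {t a b c : K} (t1 : t ≠ 1) (t2 : t * t = 1)
    (i : I3 a b c) (ha : Commute a t) (hb : Commute b t) (hc : Commute c t) : False := by
  exact h.no27G (t := e.symm t) (fun e' => t1 (by simpa using e')) (by rw [← map_mul, t2, map_one])
    (i.map (φ := e.symm.toMonoidHom) e.symm.injective) (ha.map e.symm) (hb.map e.symm) (hc.map e.symm)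

end CL.M23
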