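import Cfsg.Agent.INV.M23.Defs

/-! A root element in `SL₂`. -/

set_option autoImplicit false
set_option linter.style.haveILetI false
set_option linter.unusedSectionVars false
set_option linter.deprecated false
open Subgroup Cfsg CL.MSS CL.BG CL.KM CL.K3

namespace CL.M23

section Mat
variable {A : Type*} [CommRing A] [Finite A]

theorem dih (h2 : (2 : A) = 0) (red : ∀ x : A, x * x = 0 → x = 0)
    {Γ : Submonoid (Matrix (Fin 2) (Fin 2) A)} {x x' y s t : A} (st : s * t = 1) (e : s * s * y = x)
    (xx : x * x' = 1) (h1 : !![1, x; 0, 1] ∈ Γ) (h3 : !![1, 0; y, 1] ∈ Γ) : !![0, s; t, 0] ∈ Γ := by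
  have hy : t * x * t = y := by rw [← e]; linear_combination (s * t * y + y) * st
  let H : (Matrix (Fin 2) (Fin 2) A)ˣ := ⟨!![x * t, s; t, 0], !![0, s; t, x * t],
    by ext i j; fin_cases i <;> fin_cases j <;> simp <;>
      first | linear_combination st | linear_combination (x * t * s) * h2,
    by ext i j; fin_cases i <;> fin_cases j <;> simp <;>
      first | linear_combination st | linear_combination (x * t * t) * h2⟩
  have hp : ∀ k : ℕ, ∃ p q : A, (H ^ k : (Matrix (Fin 2) (Fin 2) A)ˣ).1 =
      !![p + q * (x * t), q * s; q * t, p] := fun k => by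
    induction k with
    | zero => exact ⟨1, 0, by ext i j; fin_cases i <;> fin_cases j <;> simp⟩
    | succ k ih =>
      obtain ⟨p, q, e⟩ := ih
      refine ⟨q, p + q * (x * t), ?_⟩
      rw [pow_succ, Units.val_mul, e]
      ext i j
      fin_cases i <;> fin_cases j <;> simp [H] <;>
        first | linear_combination q * st | ring1
  have ho : Odd (orderOf H) := by
    rw [← Nat.not_even_iff_odd]
    rintro ⟨k, hk⟩
    obtain ⟨p, q, e⟩ := hp k
    have h4 : (H ^ k).1 * (H ^ k).1 = 1 := by rw [← Units.val_mul, ← pow_add, ← hk, pow_orderOf_eq_one]; rfl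
    rw [e] at h4
    have a1 := congrFun (congrFun h4 0) 1
    have a2 := congrFun (congrFun h4 1) 1
    simp at a1 a2
    have q0 : q = 0 := red q (by
      linear_combination x' * a1 - (q * q) * xx - (q * q * x * x') * st - (p * q * s * x') * h2)
    have p1 : p + 1 = 0 := red _ (by rw [q0] at a2; linear_combination a2 + (p + 1) * h2)
    have : H ^ k = 1 := Units.ext (by
      rw [e, q0, show p = 1 by linear_combination p1 - h2]
      ext i j; fin_cases i <;> fin_cases j <;> simp)
    have h5 := orderOf_pos H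
    have := Nat.le_of_dvd (by omega) (orderOf_dvd_of_pow_eq_one this)
    omega
  obtain ⟨k, hk⟩ := ho
  have h5 : H.1 * H.1 = !![1, x; 0, 1] * !![1, 0; y, 1] := by
    rw [← hy]
    ext i j; fin_cases i <;> fin_cases j <;> simp [H] <;>
      first | linear_combination st | linear_combination x * st | ring1
  have h6 : H.1 = (H.1 * H.1) ^ (k + 1) := by
    rw [← pow_two, ← pow_mul, ← Units.val_pow_eq_pow_val, show 2 * (k + 1) = 2 * k + 1 + 1 by ring, ← hk,
      pow_succ, pow_orderOf_eq_one, one_mul]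
  have h7 := mul_mem h1 (h6 ▸ pow_mem (h5 ▸ mul_mem h1 h3) (k + 1) : H.1 ∈ Γ)
  convert h7 using 1
  ext i j; fin_cases i <;> fin_cases j <;> simp [H]
  linear_combination -(x * t) * h2

theorem linM (h2 : (2 : A) = 0) (red : ∀ x : A, x * x = 0 → x = 0)
    {Γ : Submonoid (Matrix (Fin 2) (Fin 2) A)} {c d j : A} (cd : c * d = 1) (hj : j * j + j + 1 = 0)
    (h1 : !![1, 1; 0, 1] ∈ Γ) (h3 : !![1, 0; c, 1] ∈ Γ) (h4 : !![j * j, 0; 0, j] ∈ Γ) :
    ∃ μ, μ * μ * c = 1 ∧ !![1, μ; 0, 1] ∈ Γ := by
  have j3 : j * j * j = 1 := by linear_combination (j - 1) * hj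
  have sq : Function.Surjective fun x : A => x * x := Finite.injective_iff_surjective.1 fun a b e =>
    sub_eq_zero.1 (red _ (by linear_combination e + (b * b - a * b) * h2))
  obtain ⟨μ, hμ : μ * μ = d⟩ := sq d
  obtain ⟨σ, hσ : σ * σ = μ⟩ := sq μ
  have mc : μ * μ * c = 1 := by rw [hμ, mul_comm, cd]
  have cj : ∀ x : A, !![1, x; 0, 1] ∈ Γ → !![1, j * x; 0, 1] ∈ Γ := fun x hx => by
    convert mul_mem (mul_mem h4 hx) (mul_mem h4 h4) using 1
    ext a b; fin_cases a <;> fin_cases b <;> simp <;>
      first | linear_combination -(j * j * j + 1) * j3 | linear_combination -(j * x) * j3 |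
        linear_combination -j3
  have hw := dih h2 red (s := μ) (t := μ * c) (by rw [← mul_assoc, mc]) mc (mul_one 1) h1 h3
  have uu : (!![1, μ; 0, 1] : Matrix (Fin 2) (Fin 2) A) * !![1, μ; 0, 1] = 1 := by
    ext a b; fin_cases a <;> fin_cases b <;> simp
    linear_combination μ * h2
  let Γ' : Submonoid (Matrix (Fin 2) (Fin 2) A) :=
    { carrier := {M | !![1, μ; 0, 1] * M * !![1, μ; 0, 1] ∈ Γ}
      one_mem' := by simp only [Set.mem_ofPred_eq, mul_one, uu, one_mem]
      mul_mem' := fun {a b} ha hb => by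
        have := Γ.mul_mem ha hb
        simp only [Set.mem_ofPred_eq, mul_assoc] at this ⊢
        rwa [← mul_assoc !![1, μ; 0, 1] !![1, μ; 0, 1], uu, one_mul] at this }
  have k1 : ∀ x : A, !![1, x; 0, 1] ∈ Γ → !![1, x; 0, 1] ∈ Γ' := fun x hx => by
    change _ ∈ Γ
    convert hx using 1
    ext a b; fin_cases a <;> fin_cases b <;> simp
    linear_combination μ * h2
  have k2 : !![1, 0; μ * c, 1] ∈ Γ' := by
    change _ ∈ Γ
    convert hw using 1
    ext a b; fin_cases a <;> fin_cases b <;> simp <;>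
      first | linear_combination mc + h2 | linear_combination μ * mc + μ * h2
  have w1 := dih h2 red (s := σ) (t := σ * μ * c) (by linear_combination (μ * c) * hσ + mc)
    (by linear_combination (μ * c) * hσ + mc) (mul_one 1) (k1 _ h1) k2
  have w2 := dih h2 red (s := σ * j) (t := σ * μ * c * (j * j)) (x' := j)
    (by linear_combination (μ * c * (j * j * j)) * hσ + (j * j * j) * mc + j3)
    (by linear_combination (μ * c * (j * j)) * hσ + (j * j) * mc) (by linear_combination j3)
    (k1 _ (cj _ (cj _ h1))) k2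
  refine ⟨μ, mc, ?_⟩
  have w3 : !![1, μ; 0, 1] * !![j * j, 0; 0, j] * !![1, μ; 0, 1] ∈ Γ := by
    have := mul_mem w1 w2
    change _ ∈ Γ at this
    convert this using 3
    ext a b; fin_cases a <;> fin_cases b <;> simp <;>
      first | linear_combination -(μ * c * (j * j)) * hσ - (j * j) * mc |
        linear_combination -(μ * c * j) * hσ - j * mc
  have w4 : !![1, j * j * μ; 0, 1] ∈ Γ := by
    convert mul_mem w3 (mul_mem h4 h4) using 1
    ext a b; fin_cases a <;> fin_cases b <;> simp <;>
      first | linear_combination -(j * j * j + 1) * j3 | linear_combination -j3 |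
        linear_combination -(μ * j + μ) * j3 - μ * hj + (j * j * μ) * h2
  have := cj _ w4
  rwa [show j * (j * j * μ) = μ by linear_combination μ * j3] at this

end Mat

/-- matrix units give a homomorphism from `2 × 2` matrices -/
def unitHom {A R : Type*} [CommRing A] [Ring R] (ι : A →+* R) {n m : R} (hn : n * n = 0) (hm : m * m = 0)
    (h1 : n * m + m * n = 1) (cn : ∀ a, Commute n (ι a)) (cm : ∀ a, Commute m (ι a)) :
    Matrix (Fin 2) (Fin 2) A →* R where
  toFun M := ι (M 0 0) * (n * m) + ι (M 0 1) * n + ι (M 1 0) * m + ι (M 1 1) * (m * n)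
  map_one' := by simpa using h1
  map_mul' M N := by
    have e1 : n * (m * n) = n := by
      have := congrArg (n * ·) h1
      simpa [mul_add, ← mul_assoc, hn] using this
    have e2 : m * (n * m) = m := by
      have := congrArg (m * ·) h1
      simpa [mul_add, ← mul_assoc, hm] using this
    have e3 : ∀ x, n * (n * x) = 0 := fun x => by rw [← mul_assoc, hn, zero_mul]
    have e4 : ∀ x, m * (m * x) = 0 := fun x => by rw [← mul_assoc, hm, zero_mul]
    have e5 : ∀ a x, n * (ι a * x) = ι a * (n * x) := fun a x => by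
      rw [← mul_assoc, (cn a).eq, mul_assoc]
    have e6 : ∀ a x, m * (ι a * x) = ι a * (m * x) := fun a x => by
      rw [← mul_assoc, (cm a).eq, mul_assoc]
    simp only [Matrix.mul_apply, Fin.sum_univ_two, map_add, map_mul, mul_add, add_mul, mul_assoc, e5, e6,
      e1, e2, e3, e4, hn, hm, mul_zero, add_zero, zero_add]
    abel

/-- With `c = nm + mn`, `m' = c⁻¹ m`, `j = ω² n m' + ω m' n` and `A = ⟨c, j⟩` everything takes place in the
`2 × 2` matrices over `A`. -/
theorem lin {R : Type*} [Ring R] [Finite R] (h2 : (2 : R) = 0) {ω n m : R} (hω : ω * ω + ω + 1 = 0)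
    (hn : n * n = 0) (hm : m * m = 0) (hωn : n * ω = ω * ω * n) (hωm : m * ω = ω * ω * m) {r : ℕ}
    (hr : Odd r) (hc : (n * m + m * n) ^ r = 1) {Γ : Submonoid R} (h1 : 1 + n ∈ Γ) (h3 : 1 + m ∈ Γ)
    (h4 : ω ∈ Γ) : ∃ t, 1 + t ∈ Γ ∧ t * n = 0 ∧ n * t = 0 ∧ t * ω = ω * ω * t ∧ t * m * t = n := by
  have w3 : ∀ x, ω * (ω * (ω * x)) = x := fun x => by
    have := congrArg (fun y => (ω - 1) * y * x) hω
    simp only [mul_zero, zero_mul] at this
    rw [← sub_eq_zero, ← this]
    noncomm_ring
  have e3 : ∀ x, n * (n * x) = 0 := fun x => by rw [← mul_assoc, hn, zero_mul]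
  have e4 : ∀ x, m * (m * x) = 0 := fun x => by rw [← mul_assoc, hm, zero_mul]
  have e5 : ∀ x, n * (ω * x) = ω * (ω * (n * x)) := fun x => by
    rw [← mul_assoc, hωn]; simp only [mul_assoc]
  have e6 : ∀ x, m * (ω * x) = ω * (ω * (m * x)) := fun x => by
    rw [← mul_assoc, hωm]; simp only [mul_assoc]
  obtain ⟨c, hcd⟩ : ∃ c, c = n * m + m * n := ⟨_, rfl⟩
  rw [← hcd] at hc
  have cn : Commute n c := by
    simp only [hcd, Commute, SemiconjBy, mul_add, add_mul, mul_assoc, e3, hn, mul_zero, zero_add, add_zero]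
  have cm : Commute m c := by
    simp only [hcd, Commute, SemiconjBy, mul_add, add_mul, mul_assoc, e4, hm, mul_zero, zero_add, add_zero]
  have cw : Commute ω c := by
    simp only [hcd, Commute, SemiconjBy, mul_add, add_mul, mul_assoc, hωn, hωm, e5, e6, w3]
  obtain ⟨k, rfl⟩ := hr
  obtain ⟨d, hd⟩ : ∃ d, d = c ^ (2 * k) := ⟨_, rfl⟩
  have dc : d * c = 1 := by rw [hd, ← pow_succ, hc]
  have cd : c * d = 1 := by rw [hd, ← pow_succ', hc]
  have dn : ∀ x, n * (d * x) = d * (n * x) := fun x => by
    rw [← mul_assoc, hd, (cn.pow_right _).eq, mul_assoc]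
  have dm : ∀ x, m * (d * x) = d * (m * x) := fun x => by
    rw [← mul_assoc, hd, (cm.pow_right _).eq, mul_assoc]
  have dw : ∀ x, ω * (d * x) = d * (ω * x) := fun x => by
    rw [← mul_assoc, hd, (cw.pow_right _).eq, mul_assoc]
  obtain ⟨l, hl⟩ : ∃ l, l = d * m := ⟨_, rfl⟩
  have cl : c * l = m := by rw [hl, ← mul_assoc, cd, one_mul]
  have ll : l * l = 0 := by rw [hl, mul_assoc, dm, hm, mul_zero, mul_zero]
  have nl : n * l + l * n = 1 := by rw [hl, dn, mul_assoc, ← mul_add, ← hcd, dc]
  have lc : Commute l c := hl ▸ (hd ▸ (Commute.refl c).pow_left _ : Commute d c).mul_left cm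
  have e7 : ∀ x, l * (ω * x) = ω * (ω * (l * x)) := fun x => by
    simp only [hl, mul_assoc, e6, dw]
  have e8 : ∀ x, l * (l * x) = 0 := fun x => by rw [← mul_assoc, ll, zero_mul]
  have e1 : ∀ x, n * (l * (n * x)) = n * x := fun x => by
    have := congrArg (fun y => n * y * x) nl
    simpa [mul_add, add_mul, mul_assoc, e3] using this
  have e2 : ∀ x, l * (n * (l * x)) = l * x := fun x => by
    have := congrArg (fun y => l * y * x) nl
    simpa [mul_add, add_mul, mul_assoc, e8] using this
  have e1' := e1 1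
  have e2' := e2 1
  have e5' := e5 1
  have e7' := e7 1
  simp only [mul_one] at e1' e2' e5' e7'
  obtain ⟨j, hj⟩ : ∃ j, j = ω * ω * (n * l) + ω * (l * n) := ⟨_, rfl⟩
  have jn : Commute n j := by
    simp only [hj, Commute, SemiconjBy, mul_add, add_mul, mul_assoc, e5, e1', w3, e3, hn, mul_zero,
      zero_add, add_zero]
  have jl : Commute l j := by
    simp only [hj, Commute, SemiconjBy, mul_add, add_mul, mul_assoc, e7, e2', w3, e8, ll, mul_zero,
      zero_add, add_zero]
  have jw : Commute ω j := by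
    simp only [hj, Commute, SemiconjBy, mul_add, add_mul, mul_assoc, e5, e7, e5', e7', w3]
  have jc : Commute c j := hj ▸ ((cw.mul_left cw).mul_left (cn.mul_left lc)).symm.add_right
    (cw.mul_left (lc.mul_left cn)).symm
  have jj : j * j = ω * (n * l) + ω * ω * (l * n) := by
    simp only [hj, mul_add, add_mul, mul_assoc, e5, e7, e1, e2, e1', e2', w3, e3, e8, mul_zero,
      zero_add, add_zero]
  have jq : j * j + j + 1 = 0 := by
    rw [jj, hj, ← nl]
    have := congrArg (· * (n * l + l * n)) hω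
    simp only [zero_mul] at this
    rw [← this]
    noncomm_ring
  have j3 : j ^ 3 = 1 := by
    have := congrArg (fun y => (j - 1) * y) jq
    simp only [mul_zero] at this
    rw [← sub_eq_zero, ← this]
    noncomm_ring
  let S := Subring.closure ({c, j} : Set R)
  letI : CommRing S := Subring.closureCommRingOfComm (by
    rintro _ (rfl | rfl) _ (rfl | rfl)
    exacts [rfl, jc, jc.symm, rfl])
  have cS : ∀ y, Commute y c → Commute y j → ∀ a : S, Commute y (a : R) := fun y a b x =>
    (Subring.closure_le (t := Subring.centralizer {y})).2 (by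
      rintro _ (rfl | rfl) _ rfl
      exacts [a, b]) x.2 y rfl
  have t2 : (2 : S) = 0 := Subtype.ext h2
  have red : ∀ x : S, x * x = 0 → x = 0 := by
    have hN := Nat.ModEq.pow_totient (x := 2) (n := 3 * (2 * k + 1))
      (Nat.coprime_two_left.2 ⟨3 * k + 1, by ring⟩)
    have h0 : 0 < Nat.totient (3 * (2 * k + 1)) := Nat.totient_pos.2 (by omega)
    generalize Nat.totient (3 * (2 * k + 1)) = N at hN h0
    have fr : ∀ (N : ℕ) (x y : S), (x + y) ^ 2 ^ N = x ^ 2 ^ N + y ^ 2 ^ N := fun N x y => by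
      induction N with
      | zero => simp
      | succ N ih =>
        simp only [pow_succ, pow_mul, ih]
        linear_combination (x ^ 2 ^ N * y ^ 2 ^ N) * t2
    have fx : ∀ y : R, y ^ (3 * (2 * k + 1)) = 1 → y ^ 2 ^ N = y := fun y hy => by
      rw [pow_eq_pow_of_modEq hN hy, pow_one]
    have all : ∀ x : S, x ^ 2 ^ N = x := by
      rintro ⟨x, hx⟩
      induction hx using Subring.closure_induction with
      | mem x hx =>
        refine Subtype.ext (fx x ?_)
        rcases hx with rfl | rfl
        · rw [mul_comm, pow_mul, hc, one_pow]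
        · rw [pow_mul, j3, one_pow]
      | zero => exact zero_pow (by positivity)
      | one => exact one_pow _
      | add x y hx hy a b => exact (fr N ⟨x, hx⟩ ⟨y, hy⟩).trans (by rw [a, b]; rfl)
      | neg x hx a =>
        have : (⟨-x, neg_mem hx⟩ : S) = ⟨x, hx⟩ := by
          change -(⟨x, hx⟩ : S) = _
          linear_combination -(⟨x, hx⟩ : S) * t2
        rw [this, a]
      | mul x y hx hy a b => exact (mul_pow (⟨x, hx⟩ : S) ⟨y, hy⟩ _).trans (by rw [a, b]; rfl)
    intro x hx
    obtain ⟨N, rfl⟩ := Nat.exists_eq_succ_of_ne_zero h0.ne'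
    rw [← all x, pow_succ', pow_mul, pow_two, hx]
    exact zero_pow (by positivity)
  let φ := unitHom S.subtype hn ll nl (cS n cn jn) (cS l lc jl)
  have mc : c ∈ S := Subring.subset_closure (Or.inl rfl)
  have mj : j ∈ S := Subring.subset_closure (Or.inr rfl)
  have φu : ∀ x : S, φ !![1, x; 0, 1] = 1 + x * n := fun x => by
    simp [φ, unitHom]
    rw [← nl]; abel
  obtain ⟨μ, m1, m2⟩ := linM t2 red (Γ := Γ.comap φ) (c := ⟨c, mc⟩) (d := ⟨c, mc⟩ ^ (2 * k))
    (j := ⟨j, mj⟩) (Subtype.ext (show c * c ^ (2 * k) = 1 from hd ▸ cd)) (Subtype.ext jq)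
    (by rw [Submonoid.mem_comap, φu]; simpa using h1)
    (by
      rw [Submonoid.mem_comap]
      convert h3 using 1
      simp [φ, unitHom, cl]
      rw [← nl]; abel)
    (by
      rw [Submonoid.mem_comap]
      convert h4 using 1
      simp only [φ, unitHom, MonoidHom.coe_mk, OneHom.coe_mk]
      simp only [Matrix.of_apply, Matrix.cons_val', Matrix.cons_val_zero, Matrix.cons_val_one,
        Matrix.cons_val_fin_one, map_zero, zero_mul, add_zero, map_mul, Subring.coe_subtype]
      rw [jj, hj]
      simp only [mul_add, add_mul, mul_assoc, e1, e2, e3, e8, mul_zero, zero_add, add_zero]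
      rw [← mul_add, nl, mul_one])
  rw [Submonoid.mem_comap, φu] at m2
  have a1 := cS n cn jn μ
  have a2 := cS l lc jl μ
  have a3 := cS ω cw jw μ
  refine ⟨μ * n, m2, by rw [mul_assoc, hn, mul_zero], by rw [← mul_assoc, a1.eq, mul_assoc, hn, mul_zero],
    by rw [mul_assoc, hωn, ← mul_assoc, ← (a3.mul_left a3).eq, mul_assoc], ?_⟩
  have a4 : (μ : R) * μ * c = 1 := congrArg Subtype.val m1
  calc (μ : R) * n * m * (μ * n) = μ * (n * c) * (l * μ) * n := by rw [← cl]; simp only [mul_assoc]
    _ = μ * c * (n * μ) * (l * n) := by rw [cn.eq, a2.eq]; simp only [mul_assoc]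
    _ = μ * (c * μ) * (n * (l * n)) := by rw [a1.eq]; simp only [mul_assoc]
    _ = n := by rw [e1', (cS c (Commute.refl c) jc μ).eq, ← mul_assoc, a4, one_mul]

end CL.M23
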