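import Cfsg.Agent.INV.M23.Lin

/-! Two quadratic elements on an elementary abelian 2-group. -/

set_option autoImplicit false
set_option linter.style.haveILetI false
set_option linter.unusedSectionVars false
open Subgroup Cfsg CL.MSS CL.BG CL.KM CL.K3
open scoped commutatorElement

namespace CL.M23

section Ring
variable {R : Type*} [Ring R] {ω n m β : R}

theorem cube (hω : ω * ω + ω + 1 = 0) (x : R) : ω * (ω * (ω * x)) = x := by
  have := congrArg (fun y => (ω - 1) * y * x) hω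
  simp only [mul_zero, zero_mul] at this
  rw [← sub_eq_zero, ← this]
  noncomm_ring

theorem zero_of_fix (h2 : (2 : R) = 0) (hω : ω * ω + ω + 1 = 0) {x : R} (h : ω * x = x) : x = 0 := by
  have := congrArg (· * x) hω
  simp only [add_mul, mul_assoc, h, zero_mul, one_mul] at this
  rwa [← two_mul, h2, zero_mul, zero_add] at this

theorem zero_of_comm (h2 : (2 : R) = 0) (hω : ω * ω + ω + 1 = 0) (hωn : n * ω = ω * ω * n)
    (h : ω * n = n * ω) : n = 0 := by
  have := zero_of_fix h2 hω (x := ω * n) (by rw [← mul_assoc, ← hωn, h])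
  rw [← cube hω n, this, mul_zero, mul_zero]

theorem ringB (h2 : (2 : R) = 0) (hω : ω * ω + ω + 1 = 0) (hωn : n * ω = ω * ω * n)
    (hωm : m * ω = ω * ω * m) {r : ℕ} (hr : Odd r) (hc : (n * m + m * n) ^ r = 1) (h1 : (1 : R) ≠ 0)
    (b3 : β * β * β = 1) (bn : β * n = n * β) (bm : β * ω * m = m * (β * ω)) (bw : β * ω = ω * β) :
    ω ≠ 1 ∧ β ≠ 1 ∧ β * ω ≠ 1 ∧ β ≠ ω ∧
      ∀ t, t * ω = ω * ω * t → t * m * t = n → β * t ≠ t * β := by
  have n0 : n ≠ 0 := by
    rintro rfl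
    rw [zero_mul, mul_zero, add_zero, zero_pow hr.pos.ne'] at hc
    exact h1 hc.symm
  have m0 : m ≠ 0 := by
    rintro rfl
    rw [zero_mul, mul_zero, add_zero, zero_pow hr.pos.ne'] at hc
    exact h1 hc.symm
  refine ⟨fun e => h1 (zero_of_fix h2 hω (by rw [e, one_mul])), fun e => m0 (zero_of_comm h2 hω hωm ?_),
    fun e => n0 (zero_of_comm h2 hω hωn ?_), fun e => n0 (zero_of_comm h2 hω hωn (e ▸ bn)),
    fun t a1 a2 a3 => n0 ?_⟩
  · simpa [e] using bm
  · have : ω = β * β := by rw [← mul_one (β * β), ← e, ← mul_assoc, b3, one_mul]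
    rw [this, mul_assoc, bn, ← mul_assoc, bn, mul_assoc]
  · have e1 : β * m = ω * m * β := by
      calc β * m = ω * ω * (β * ω * m) := by
            rw [bw, mul_assoc ω ω, mul_assoc ω β, cube hω]
        _ = ω * ω * (m * ω) * β := by rw [bm, bw]; simp only [mul_assoc]
        _ = _ := by rw [hωm]; simp only [mul_assoc, cube hω]
    have e2 : n * β = ω * (ω * (n * β)) := by
      calc n * β = β * t * m * t := by rw [← bn, ← a2]; simp only [mul_assoc]
        _ = t * ω * m * (β * t) := by rw [a3, mul_assoc t β, e1]; simp only [mul_assoc, a3]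
        _ = _ := by rw [a1, a3, ← a2]; simp only [mul_assoc]
    have e3 := zero_of_fix h2 hω (x := n * β) (by conv_lhs => rw [e2]; exact cube hω _)
    rw [← mul_one n, ← b3, ← mul_assoc, ← mul_assoc, e3, zero_mul, zero_mul]

theorem exists_odd [Finite R] (h2 : (2 : R) = 0) (c : R) :
    ∃ i a r : ℕ, Odd r ∧ (c ^ (3 * r) - 1) ^ 2 ^ a * c ^ i = 0 := by
  obtain ⟨i, j, hij, e⟩ : ∃ i j : ℕ, i < j ∧ c ^ i = c ^ j := by
    obtain ⟨i, j, h, e⟩ := Finite.exists_ne_map_eq_of_infinite fun i : ℕ => c ^ i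
    rcases lt_or_gt_of_ne h with h | h
    exacts [⟨i, j, h, e⟩, ⟨j, i, h, e.symm⟩]
  obtain ⟨d, rfl⟩ := Nat.exists_eq_add_of_lt hij
  obtain ⟨a, r, hr, hd⟩ := Nat.exists_eq_two_pow_mul_odd (show d + 1 ≠ 0 by omega)
  have k : ∀ (a : ℕ) (y : R), (y - 1) ^ 2 ^ a = y ^ 2 ^ a - 1 := fun a y => by
    induction a with
    | zero => simp
    | succ a ih =>
      rw [pow_succ, pow_mul, pow_mul, ih]
      generalize y ^ 2 ^ a = w
      calc (w - 1) ^ 2 = w ^ 2 - 1 + (1 - w) * 2 := by noncomm_ring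
        _ = _ := by rw [h2, mul_zero, add_zero]
  refine ⟨i, a, r, hr, ?_⟩
  have e' : c ^ (d + 1) * c ^ i = c ^ i := by rw [← pow_add, e]; congr 1; omega
  rw [k, ← pow_mul, show 3 * r * 2 ^ a = (d + 1) + ((d + 1) + (d + 1)) by rw [hd]; ring, sub_mul,
    pow_add c (d + 1), pow_add c (d + 1), mul_assoc, mul_assoc, e', e', e', one_mul, sub_self]

end Ring

section Fil
variable {V : Type*} [AddCommGroup V]

/-- the ascending filtration -/
def fil (n m : AddMonoid.End V) : ℕ → AddSubgroup V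
  | 0 => ⊥
  | i + 1 => (fil n m i).comap n ⊓ (fil n m i).comap m

theorem mem_fil {n m : AddMonoid.End V} {i : ℕ} {v : V} :
    v ∈ fil n m (i + 1) ↔ n v ∈ fil n m i ∧ m v ∈ fil n m i := Iff.rfl

theorem fil_mono {n m : AddMonoid.End V} (i : ℕ) : ∀ v ∈ fil n m i, v ∈ fil n m (i + 1) := by
  induction i with
  | zero => intro v hv; rw [AddSubgroup.mem_bot.1 hv]; exact zero_mem _
  | succ i ih => exact fun v hv => ⟨ih _ hv.1, ih _ hv.2⟩

theorem fil_top {n m : AddMonoid.End V} (hn : n * n = 0) (hm : m * m = 0) (k : ℕ) :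
    ∀ v, ((n * m + m * n) ^ k) v = 0 → v ∈ fil n m (2 * k + 1) := by
  have nn : ∀ v, n (n v) = 0 := fun v => DFunLike.congr_fun hn v
  have mm : ∀ v, m (m v) = 0 := fun v => DFunLike.congr_fun hm v
  induction k with
  | zero => intro v hv; rw [show v = 0 from hv]; exact zero_mem _
  | succ k ih =>
    intro v hv
    rw [pow_succ] at hv
    have h : n (m v) + m (n v) ∈ fil n m (2 * k + 1) := ih _ hv
    obtain ⟨h1, h2⟩ := mem_fil.1 h
    rw [map_add, nn, zero_add] at h1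
    rw [map_add, mm, add_zero] at h2
    exact mem_fil.2 ⟨mem_fil.2 ⟨nn v ▸ zero_mem _, mem_fil.2 ⟨h1, mm _ ▸ zero_mem _⟩⟩,
      mem_fil.2 ⟨mem_fil.2 ⟨nn _ ▸ zero_mem _, h2⟩, mm v ▸ zero_mem _⟩⟩

variable {L : Type*} [Group L] [Finite L]

theorem nil (h2 : ∀ v : V, v + v = 0) (ρ : L →* AddMonoid.End V) {n m : AddMonoid.End V} {k : ℕ}
    (ht : ∀ v, v ∈ fil n m k) : ∃ N : Subgroup L,
      (∀ x, x ∈ N ↔ ∀ i, ∀ v ∈ fil n m (i + 1), ρ x v - v ∈ fil n m i) ∧
      (∀ y, (∀ i, ∀ v ∈ fil n m i, ρ y v ∈ fil n m i) → (∀ i, ∀ v ∈ fil n m i, ρ y⁻¹ v ∈ fil n m i) →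
        y ∈ 𝐍(N)) ∧ ∀ x ∈ N, ρ x ^ 2 ^ k = 1 := by
  have mul : ∀ x y v, ρ (x * y) v = ρ x (ρ y v) := fun x y v => by rw [map_mul]; rfl
  have st : ∀ x, (∀ i, ∀ v ∈ fil n m (i + 1), ρ x v - v ∈ fil n m i) →
      ∀ i, ∀ v ∈ fil n m i, ρ x v ∈ fil n m i := fun x hx i v hv => by
    cases i with
    | zero => rw [AddSubgroup.mem_bot.1 hv, map_zero]; exact zero_mem _
    | succ i => simpa using add_mem (fil_mono i _ (hx i v hv)) hv
  let M : Submonoid L :=
    { carrier := {x | ∀ i, ∀ v ∈ fil n m (i + 1), ρ x v - v ∈ fil n m i}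
      one_mem' := fun i v _ => by simp
      mul_mem' := fun {x y} hx hy i v hv => by
        have := add_mem (hx i _ (st y hy _ v hv)) (hy i v hv)
        rwa [sub_add_sub_cancel, ← mul] at this }
  let N : Subgroup L := { M with
    inv_mem' := fun {x} hx => by
      rw [inv_eq_of_mul_eq_one_left (show x ^ (orderOf x - 1) * x = 1 by
        rw [← pow_succ, Nat.sub_add_cancel (orderOf_pos x), pow_orderOf_eq_one])]
      exact M.pow_mem hx _ }
  refine ⟨N, fun _ => Iff.rfl, fun y a b => mem_norm fun x hx i v hv => ?_, fun x hx => ?_⟩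
  · have := a i _ (hx i _ (b _ v hv))
    rwa [map_sub, ← mul, ← mul, ← mul, mul_inv_cancel, map_one] at this
  · have : ∀ i, ∀ v ∈ fil n m i, ρ (x ^ 2 ^ i) v = v := fun i => by
      induction i with
      | zero => intro v hv; rw [AddSubgroup.mem_bot.1 hv, map_zero]
      | succ i ih =>
        intro v hv
        have e := ih _ (N.pow_mem hx (2 ^ i) i v hv)
        rw [map_sub, sub_eq_sub_iff_add_eq_add] at e
        rw [pow_succ, pow_mul, pow_two, mul, ← add_right_cancel_iff (a := v), e, h2, h2]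
    rw [← map_pow]
    exact AddMonoidHom.ext fun v => this k v (ht v)

/-- restriction to an invariant subgroup -/
def res (W : AddSubgroup V) (x : AddMonoid.End V) (h : ∀ w ∈ W, x w ∈ W) : AddMonoid.End W :=
  ((x : V →+ V).comp W.subtype).codRestrict W fun w => h w w.2

end Fil

theorem linG {L V : Type*} [Group L] [Finite L] [AddCommGroup V] [Finite V] (h2 : ∀ v : V, v + v = 0)
    (ρ : L →* AddMonoid.End V) {f g z b : L} (z3 : z ^ 3 = 1) (b3 : b ^ 3 = 1) (bz : Commute b z)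
    (bf : Commute b f) (bg : Commute (b * z) g) (hz : ρ z * ρ z + ρ z + 1 = 0)
    (hf : (ρ f - 1) * (ρ f - 1) = 0) (hg : (ρ g - 1) * (ρ g - 1) = 0)
    (zf : (ρ f - 1) * ρ z = ρ z * ρ z * (ρ f - 1)) (zg : (ρ g - 1) * ρ z = ρ z * ρ z * (ρ g - 1)) :
    (∃ N : Subgroup L, f ∈ N ∧ g ∈ N ∧ z ∈ 𝐍(N) ∧ b ∈ 𝐍(N) ∧ ∀ x ∈ N, ∃ k : ℕ, ρ x ^ 2 ^ k = 1) ∨
    ∃ K J : Subgroup L, ρ.ker ≤ K ∧ K ≤ J ∧ f ∈ J ∧ J ≤ 𝐍(K) ∧ z ∈ 𝐍(K) ∧ b ∈ 𝐍(K) ∧ z ∈ 𝐍(J) ∧
      b ∈ 𝐍(J) ∧ (∀ x ∈ J, x * x ∈ K) ∧ z ∉ K ∧ b ∉ K ∧ b * z ∉ K ∧ b * z⁻¹ ∉ K ∧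
      ∃ x ∈ J, ⁅b, x⁆ ∉ K := by
  have mul : ∀ x y v, ρ (x * y) v = ρ x (ρ y v) := fun x y v => by rw [map_mul]; rfl
  have one : ∀ v, ρ 1 v = v := fun v => by rw [map_one]; rfl
  have zi : z⁻¹ = z * z := inv_eq_of_mul_eq_one_right (by rw [← pow_three, z3])
  have bi : b⁻¹ = b * b := inv_eq_of_mul_eq_one_right (by rw [← pow_three, b3])
  have t2 : (2 : AddMonoid.End V) = 0 := by
    rw [← one_add_one_eq_two]; exact AddMonoidHom.ext h2
  have bn : ρ b * (ρ f - 1) = (ρ f - 1) * ρ b := ((bf.map ρ).sub_right (Commute.one_right _)).eq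
  have bm : ρ b * ρ z * (ρ g - 1) = (ρ g - 1) * (ρ b * ρ z) := by
    rw [← map_mul]; exact ((bg.map ρ).sub_right (Commute.one_right _)).eq
  have bw : ρ b * ρ z = ρ z * ρ b := (bz.map ρ).eq
  have β3 : ρ b * ρ b * ρ b = 1 := by rw [← map_mul, ← map_mul, ← pow_three', b3, map_one]
  have fn : ∀ v, ρ f v - v = (ρ f - 1) v := fun v => rfl
  have gm : ∀ v, ρ g v - v = (ρ g - 1) v := fun v => rfl
  generalize ρ f - 1 = n at *
  generalize ρ g - 1 = m at *
  have mb : m * ρ b = ρ z * ρ z * ρ b * m := by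
    calc m * ρ b = m * (ρ b * ρ z) * (ρ z * ρ z) := by
          rw [bw]; simp only [mul_assoc]
          rw [← mul_assoc (ρ b), bw, mul_assoc, bw, cube hz]
      _ = ρ b * ρ z * (m * ρ z * ρ z) := by rw [← bm]; simp only [mul_assoc]
      _ = ρ b * ρ z * (ρ z * m) := by rw [zg, mul_assoc _ m, zg]; simp only [mul_assoc, cube hz]
      _ = _ := by rw [← mul_assoc, bw, mul_assoc (ρ z), bw, ← mul_assoc]
  have nw : ∀ v, n (ρ z v) = ρ z (ρ z (n v)) := fun v => DFunLike.congr_fun zf v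
  have mw : ∀ v, m (ρ z v) = ρ z (ρ z (m v)) := fun v => DFunLike.congr_fun zg v
  have nb : ∀ v, n (ρ b v) = ρ b (n v) := fun v => (DFunLike.congr_fun bn v).symm
  have mb' : ∀ v, m (ρ b v) = ρ z (ρ z (ρ b (m v))) := fun v => DFunLike.congr_fun mb v
  have nn : ∀ v, n (n v) = 0 := fun v => DFunLike.congr_fun hf v
  haveI : Finite (AddMonoid.End V) := Finite.of_injective _ DFunLike.coe_injective
  obtain ⟨i, a, r, hr, hc⟩ := exists_odd t2 (n * m + m * n)
  by_cases hW : ∀ w, ((n * m + m * n) ^ (3 * r)) w = w → w = 0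
  · left
    have hi : ∀ v, ((n * m + m * n) ^ i) v = 0 := fun v => by
      have : ∀ (k : ℕ) w, (((n * m + m * n) ^ (3 * r) - 1) ^ k) w = 0 → w = 0 := fun k => by
        induction k with
        | zero => exact fun w h => h
        | succ k ih => exact fun w h => hW w (sub_eq_zero.1 (ih _ (by rwa [pow_succ] at h)))
      exact this _ _ (DFunLike.congr_fun hc v)
    obtain ⟨N, h1, h3, h4⟩ := nil h2 ρ fun v => fil_top hf hg i v (hi v)
    have sz : ∀ i, ∀ v ∈ fil n m i, ρ z v ∈ fil n m i := fun i => by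
      induction i with
      | zero => intro v hv; rw [AddSubgroup.mem_bot.1 hv, map_zero]; exact zero_mem _
      | succ i ih =>
        exact fun v hv => mem_fil.2 ⟨nw v ▸ ih _ (ih _ hv.1), mw v ▸ ih _ (ih _ hv.2)⟩
    have sb : ∀ i, ∀ v ∈ fil n m i, ρ b v ∈ fil n m i := fun i => by
      induction i with
      | zero => intro v hv; rw [AddSubgroup.mem_bot.1 hv, map_zero]; exact zero_mem _
      | succ i ih =>
        exact fun v hv => mem_fil.2 ⟨nb v ▸ ih _ hv.1, mb' v ▸ sz _ _ (sz _ _ (ih _ hv.2))⟩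
    exact ⟨N, (h1 f).2 fun i v hv => fn v ▸ hv.1, (h1 g).2 fun i v hv => gm v ▸ hv.2,
      h3 z sz fun i v hv => by rw [zi, mul]; exact sz _ _ (sz _ _ hv),
      h3 b sb fun i v hv => by rw [bi, mul]; exact sb _ _ (sb _ _ hv), fun x hx => ⟨_, h4 x hx⟩⟩
  right
  push Not at hW
  obtain ⟨w0, w1, w2⟩ := hW
  have cn : Commute n (n * m + m * n) := by
    simp only [Commute, SemiconjBy, mul_add, add_mul, ← mul_assoc, hf, zero_mul, zero_add]
    simp only [mul_assoc, hf, mul_zero, add_zero]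
  have cm : Commute m (n * m + m * n) := by
    simp only [Commute, SemiconjBy, mul_add, add_mul, ← mul_assoc, hg, zero_mul, add_zero]
    simp only [mul_assoc, hg, mul_zero, zero_add]
  have e5 : ∀ x, n * (ρ z * x) = ρ z * (ρ z * (n * x)) := fun x => by
    rw [← mul_assoc, zf]; simp only [mul_assoc]
  have e6 : ∀ x, m * (ρ z * x) = ρ z * (ρ z * (m * x)) := fun x => by
    rw [← mul_assoc, zg]; simp only [mul_assoc]
  have cw : Commute (ρ z) (n * m + m * n) := by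
    simp only [Commute, SemiconjBy, mul_add, add_mul, mul_assoc, zf, zg, e5, e6, cube hz]
  have cb : Commute (ρ b) ((n * m + m * n) ^ 3) := by
    have e3 : ∀ x, n * (n * x) = 0 := fun x => by rw [← mul_assoc, hf, zero_mul]
    have e4 : ∀ x, m * (m * x) = 0 := fun x => by rw [← mul_assoc, hg, zero_mul]
    have e7 : ∀ x, n * (ρ b * x) = ρ b * (n * x) := fun x => by rw [← mul_assoc, ← bn, mul_assoc]
    have e8 : ∀ x, m * (ρ b * x) = ρ z * (ρ z * (ρ b * (m * x))) := fun x => by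
      rw [← mul_assoc, mb]; simp only [mul_assoc]
    have e9 : ∀ x, ρ b * (ρ z * x) = ρ z * (ρ b * x) := fun x => by rw [← mul_assoc, bw, mul_assoc]
    simp only [Commute, SemiconjBy, pow_three, mul_add, add_mul, mul_assoc, e3, e4, mul_zero, add_zero,
      zero_add, ← bn, mb, e5, e6, e7, e8, e9, cube hz]
  let W : AddSubgroup V := ((n * m + m * n) ^ (3 * r) - 1 : AddMonoid.End V).ker
  have mW : ∀ {w}, w ∈ W ↔ ((n * m + m * n) ^ (3 * r)) w = w := fun {w} => sub_eq_zero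
  have inv : ∀ y : AddMonoid.End V, Commute y ((n * m + m * n) ^ (3 * r)) → ∀ w ∈ W, y w ∈ W :=
    fun y hy w hw => mW.2 ((DFunLike.congr_fun hy.eq w).symm.trans (congrArg y (mW.1 hw)))
  have iN := inv n (cn.pow_right _)
  have iM := inv m (cm.pow_right _)
  have iZ := inv _ (cw.pow_right _)
  have iB := inv (ρ b) (by rw [pow_mul]; exact cb.pow_right _)
  have iC := fun k => inv _ ((Commute.refl (n * m + m * n)).pow_pow k _)
  have ker : ∀ u ∈ W, n u = 0 → ∃ w ∈ W, u = n w := fun u hu e => by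
    obtain ⟨k, hk⟩ := Nat.exists_eq_succ_of_ne_zero (show 3 * r ≠ 0 by have := hr.pos; omega)
    refine ⟨_, iC k _ (iM u hu), ?_⟩
    have e1 := mW.1 hu
    rw [hk, pow_succ] at e1
    refine e1.symm.trans (Eq.trans ?_ (DFunLike.congr_fun (cn.pow_right k).eq (m u)).symm)
    change ((n * m + m * n) ^ k) (n (m u) + m (n u)) = ((n * m + m * n) ^ k) (n (m u))
    rw [e, map_zero, add_zero]
  let K : Subgroup L :=
    { carrier := {x | ∀ w ∈ W, ρ x w = w}
      one_mem' := fun w _ => one w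
      mul_mem' := fun {x y} hx hy w hw => by rw [mul, hy w hw, hx w hw]
      inv_mem' := fun {x} hx w hw => by conv_lhs => rw [← hx w hw, ← mul, inv_mul_cancel, one] }
  have sq : ∀ x, (∀ w ∈ W, ρ x w - w ∈ W ∧ n (ρ x w - w) = 0 ∧ ρ x (n w) = n w) →
      ∀ w ∈ W, ρ x (ρ x w) = w := fun x hx w hw => by
    obtain ⟨u, hu, e⟩ := ker _ (hx w hw).1 (hx w hw).2.1
    rw [sub_eq_iff_eq_add.1 e, map_add, (hx u hu).2.2, sub_eq_iff_eq_add.1 e, ← add_assoc, h2, zero_add]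
  let J : Subgroup L :=
    { carrier := {x | ∀ w ∈ W, ρ x w - w ∈ W ∧ n (ρ x w - w) = 0 ∧ ρ x (n w) = n w}
      one_mem' := fun w _ => by simp [one]
      mul_mem' := fun {x y} hx hy w hw => by
        have h1 : ρ y w ∈ W := by simpa using add_mem (hy w hw).1 hw
        rw [mul, mul, (hy w hw).2.2, (hx w hw).2.2, ← sub_add_sub_cancel _ (ρ y w), map_add,
          (hx _ h1).2.1, (hy w hw).2.1]
        exact ⟨add_mem (hx _ h1).1 (hy w hw).1, add_zero _, rfl⟩
      inv_mem' := fun {x} hx w hw => by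
        have : ∀ w ∈ W, ρ x⁻¹ w = ρ x w := fun w hw => by
          conv_lhs => rw [← sq x hx w hw, ← mul, inv_mul_cancel, one]
        rw [this w hw, this _ (iN w hw)]
        exact hx w hw }
  have jW : ∀ x ∈ J, ∀ w ∈ W, ρ x w ∈ W := fun x hx w hw => by simpa using add_mem (hx w hw).1 hw
  have nK : ∀ y, (∀ w ∈ W, ρ y⁻¹ w ∈ W) → y ∈ 𝐍(K) := fun y hy => mem_norm fun x hx w hw => by
    rw [mul, mul, hx _ (hy w hw), ← mul, mul_inv_cancel, one]
  have nJ : ∀ y, (∀ w ∈ W, ρ y w ∈ W) → (∀ w ∈ W, ρ y⁻¹ w ∈ W) → (∀ u, n u = 0 → n (ρ y u) = 0) →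
      (∀ w ∈ W, ∃ u ∈ W, ρ y⁻¹ (n w) = n u) → y ∈ 𝐍(J) := fun y a1 a2 a3 a4 =>
    mem_norm fun x hx w hw => by
      obtain ⟨u, hu, e⟩ := a4 w hw
      have e1 : ρ (y * x * y⁻¹) w - w = ρ y (ρ x (ρ y⁻¹ w) - ρ y⁻¹ w) := by
        rw [map_sub, ← mul, ← mul, ← mul, mul_inv_cancel, one]
      rw [e1, mul, mul, e, (hx u hu).2.2, ← e, ← mul y y⁻¹, mul_inv_cancel, one]
      exact ⟨a1 _ (hx _ (a2 w hw)).1, a3 _ (hx _ (a2 w hw)).2.1, rfl⟩
  have iZ' : ∀ w ∈ W, ρ z⁻¹ w ∈ W := fun w hw => by rw [zi, mul]; exact iZ _ (iZ _ hw)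
  have iB' : ∀ w ∈ W, ρ b⁻¹ w ∈ W := fun w hw => by rw [bi, mul]; exact iB _ (iB _ hw)
  -- the ring `End W`
  haveI : Finite (AddMonoid.End W) := Finite.of_injective _ DFunLike.coe_injective
  have ex : ∀ {x y : AddMonoid.End W}, (∀ w : W, (x w : V) = y w) → x = y := fun h =>
    AddMonoidHom.ext fun w => Subtype.ext (h w)
  have s2 : (2 : AddMonoid.End W) = 0 := by
    rw [← one_add_one_eq_two]; exact ex fun w => h2 w
  have sz : res W _ iZ * res W _ iZ + res W _ iZ + 1 = 0 := ex fun w => DFunLike.congr_fun hz (w : V)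
  have sn : res W _ iN * res W _ iZ = res W _ iZ * res W _ iZ * res W _ iN := ex fun w => nw w
  have sm : res W _ iM * res W _ iZ = res W _ iZ * res W _ iZ * res W _ iM := ex fun w => mw w
  have r3 : Odd (3 * r) := Odd.mul (by decide) hr
  have sc : (res W _ iN * res W _ iM + res W _ iM * res W _ iN) ^ (3 * r) = 1 := by
    have : ∀ (k : ℕ) (w : W), (((res W _ iN * res W _ iM + res W _ iM * res W _ iN) ^ k) w : V) =
        ((n * m + m * n) ^ k) w := fun k => by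
      induction k with
      | zero => exact fun w => rfl
      | succ k ih => exact fun w => by rw [pow_succ, pow_succ]; exact ih _
    exact ex fun w => (this _ w).trans (mW.1 w.2)
  obtain ⟨a1, a2, a3, a4, a5⟩ := ringB (β := res W _ iB) s2 sz sn sm r3 sc
    (fun e => w2 (by exact congrArg Subtype.val (DFunLike.congr_fun e ⟨w0, mW.2 w1⟩)))
    (ex fun w => DFunLike.congr_fun β3 (w : V)) (ex fun w => DFunLike.congr_fun bn (w : V))
    (ex fun w => DFunLike.congr_fun bm (w : V)) (ex fun w => DFunLike.congr_fun bw (w : V))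
  let Γ : Submonoid (AddMonoid.End W) :=
    { carrier := {y | ∃ x : L, ∀ w : W, (y w : V) = ρ x w}
      one_mem' := ⟨1, fun w => (one w).symm⟩
      mul_mem' := fun {y y'} ⟨x, hx⟩ ⟨x', hx'⟩ => ⟨x * x', fun w => by rw [mul, ← hx', ← hx]; rfl⟩ }
  obtain ⟨t, ⟨x, t1⟩, t2, t3, t4, t5⟩ := lin (n := res W _ iN) (m := res W _ iM) s2 sz
    (ex fun w => nn w) (ex fun w => DFunLike.congr_fun hg (w : V))
    sn sm r3 sc (Γ := Γ) ⟨f, fun w => (sub_eq_iff_eq_add'.1 (fn w)).symm⟩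
    ⟨g, fun w => (sub_eq_iff_eq_add'.1 (gm w)).symm⟩ ⟨z, fun w => rfl⟩
  replace t1 : ∀ w : W, ρ x w = w + t w := fun w => (t1 w).symm
  have xJ : x ∈ J := fun w hw => by
    rw [t1 ⟨w, hw⟩, t1 ⟨n w, iN w hw⟩, add_sub_cancel_left]
    exact ⟨(t _).2, by exact congrArg Subtype.val (DFunLike.congr_fun t3 ⟨w, hw⟩), by
      rw [add_eq_left]; exact congrArg Subtype.val (DFunLike.congr_fun t2 ⟨w, hw⟩)⟩
  refine ⟨K, J, fun x hx w _ => by rw [MonoidHom.mem_ker.1 hx]; rfl, fun x hx w hw => ?_, fun w hw => ?_,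
    fun x hx => nK x (jW _ (inv_mem hx)), nK z iZ', nK b iB',
    nJ z iZ iZ' (fun u e => by rw [nw, e, map_zero, map_zero]) fun w hw => ⟨_, iZ w hw, by rw [zi, mul, nw]⟩,
    nJ b iB iB' (fun u e => by rw [nb, e, map_zero]) fun w hw => ⟨_, iB' w hw, by rw [bi, mul, mul, nb, nb]⟩,
    fun x hx w hw => by rw [mul, sq x hx w hw], fun e => a1 (ex fun w => e w w.2),
    fun e => a2 (ex fun w => e w w.2), fun e => a3 (ex fun w => (mul _ _ _).symm.trans (e w w.2)),
    fun e => a4 (ex fun w => ?_), x, xJ, fun e => a5 t t4 t5 (ex fun w => ?_)⟩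
  · rw [hx w hw, hx _ (iN w hw), sub_self, map_zero]
    exact ⟨zero_mem _, rfl, rfl⟩
  · rw [fn]
    exact ⟨iN w hw, nn w, sub_eq_zero.1 ((fn _).trans (nn w))⟩
  · have := e _ (iZ w w.2)
    rwa [← mul, inv_mul_cancel_right] at this
  · have := e _ (jW x xJ _ (iB w w.2))
    rw [← mul, ← mul, commutatorElement_def, inv_mul_cancel_right, inv_mul_cancel_right, mul, t1 w,
      t1 ⟨_, iB w w.2⟩, map_add, add_right_inj] at this
    exact this

end CL.M23
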