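import Cfsg.Agent.INV.M23.Bal

/-! Elements of order 3 with odd 3'-core. -/

set_option autoImplicit false
set_option linter.style.haveILetI false
set_option linter.unusedSectionVars false
open Subgroup Cfsg CL.MSS CL.BG CL.KM CL.K3

namespace CL.M23
variable {G : Type*} [Group G] [Finite G]

/-- `A` normalizes `U` of order 9: `C_U(A) ≠ 1`; if `u ∈ U ∖ C_U(A)` then `|C_U(A)| = 3`, `A` acts trivially on
`U / C_U(A)`, the orbit of `u` has length `≤ 3` and `C_A(u) = C_A(U)`. -/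
theorem card_le_cent {A U : Subgroup G} (hA : IsPGroup 3 A) (hU : EA 3 U) (h9 : #|U| = 9)
    (hAU : A ≤ 𝐍(U)) : #|A| ≤ 3 * #|(A ⊓ 𝐂(U) : Subgroup G)| := by
  haveI : Fact (Nat.Prime 3) := ⟨Nat.prime_three⟩
  have h1 := A38.relIndex_centralizer_le_prime hA hU.isPGroup hAU h9.le
  rw [card_eq_mul (inf_le_left : A ⊓ 𝐂(U) ≤ A) rfl, inf_relIndex_left]
  exact Nat.mul_le_mul_right _ h1

/-- `syl` for `R = A`; `D = C_A(U)` has order `≥ 9`; `od_step`. -/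
theorem Hy.od_of_big (h : Hy G) {A : Subgroup G} (hA : EA 3 A) (h27 : 27 ≤ #|A|) {x : G} (hx : x ∈ A) :
    Od x := by
  obtain ⟨U, W, hW, -, hUW, h9, hAU, ho⟩ := h.syl A hA.isPGroup
  have h1 := card_le_cent hA.isPGroup (hW.mono hUW) h9 hAU
  exact od_step h.con (hA.mono (inf_le_left : A ⊓ 𝐂(U) ≤ A)) (by omega)
    (fun d hd d1 => ho d hd.2 d1 (hA.2 d hd.1)) (mem_cent.2 fun s hs => hA.1 s hs.1 x hx) (hA.2 x hx)

/-- `syl` for `R = A`; `C_A(U) ≠ 1`. -/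
theorem Hy.exists_od (h : Hy G) {A : Subgroup G} (hA : EA 3 A) (h9 : 9 ≤ #|A|) :
    ∃ a ∈ A, a ≠ 1 ∧ Od a := by
  obtain ⟨U, W, hW, -, hUW, h9', hAU, ho⟩ := h.syl A hA.isPGroup
  have h1 := card_le_cent hA.isPGroup (hW.mono hUW) h9' hAU
  obtain ⟨a, ha, a1⟩ := exists_ne_one (A := A ⊓ 𝐂(U)) (by omega)
  exact ⟨a, ha.1, a1, ho a ha.2 a1 (hA.2 a ha.1)⟩

/-- If some `x ∈ C(A) ∖ A` has `x³ = 1` then `A⟨x⟩` has order `≥ 27` (`EA.sup_zpowers`, `mul_card_le_of_lt`):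
`od_of_big`.  Otherwise take `a₀` from `exists_od`; `thompson_bender` (`X = N⟨a₀⟩`, `E = A`, `K = ⟨z⟩`) puts `z`
into `O_{3'}(X)`: `Od.eq_one`. -/
theorem Hy.od_of_good (h : Hy G) {z : G} {A : Subgroup G} (g : Good 3 9 z A) {a : G} (ha : a ∈ A) :
    Od a := by
  haveI : Fact (Nat.Prime 3) := ⟨Nat.prime_three⟩
  by_cases hx : ∃ x ∈ 𝐂(A), x ^ 3 = 1 ∧ x ∉ A
  · obtain ⟨x, hxc, x3, hxA⟩ := hx
    have hE := g.ea.sup_zpowers x3 (mem_cent.1 hxc)
    have h1 := mul_card_le_of_lt hE.isPGroup (lt_of_le_of_ne (le_sup_left : A ≤ _)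
      fun e => hxA (e ▸ mem_sup_right (mem_zpowers x)))
    have := g.big
    exact h.od_of_big hE (by omega) (mem_sup_left ha)
  · push Not at hx
    obtain ⟨b, hb, b1, ho⟩ := h.exists_od g.ea g.big
    have z2 : z ^ 2 ^ 1 = 1 := by rw [pow_one, pow_two, g.sq]
    refine (g.ne (ho.eq_one (zpowers_le.1 (thompson_bender (p := 3) (E := A) (by norm_num)
      (h.con _ (ea_zp (g.ea.2 b hb)).isPGroup (by simpa using b1))
      (fun c hc => KM.cent_le_norm fun _ hy => comm_zp (g.ea.1 b hb c hc) hy) g.ea.isPGroup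
      (zpowers_le.2 (KM.cent_le_norm fun _ hy => comm_zp (g.comm b hb) hy))
      (piGrp_compl_of_isPGroup (isPGroup_zpowers z2) (by simp))
      (fun c hc => KM.cent_le_norm fun _ hy => comm_zp (g.comm c hc).symm hy)
      fun x hx' x3 => hx x hx'.2 x3)) z2)).elim

/-- `27` divides the order (`syl`). -/
theorem Hy.dvd27 (h : Hy G) : 27 ∣ Nat.card G := by
  haveI : Fact (Nat.Prime 3) := ⟨Nat.prime_three⟩
  obtain ⟨U, W, hW, h27, -⟩ := h.syl ⊥ IsPGroup.of_bot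
  obtain ⟨k, hk⟩ := hW.isPGroup.exists_card_eq
  refine Dvd.dvd.trans ?_ (card_subgroup_dvd_card W)
  rw [hk] at h27 ⊢
  exact pow_dvd_pow 3 ((Nat.pow_le_pow_iff_right (by norm_num : 1 < 3)).1 (show 3 ^ 3 ≤ 3 ^ k from h27))

end CL.M23
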