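import Cfsg.Agent.INV.M23.Defs
import Cfsg.Agent.S1480

/-! `B` normalizes no nontrivial 2-subgroup. -/

set_option autoImplicit false
set_option linter.style.haveILetI false
set_option linter.unusedSectionVars false
open Subgroup Cfsg CL.MSS CL.BG CL.KM CL.K3

namespace CL.M23
variable {G : Type*} [Group G] [Finite G]

/-- the conjugation action on the maximal `E`-invariant 2-subgroups -/
abbrev sbAct {E L : Subgroup G} (h : L ≤ 𝐍(E)) : MulAction L (maxInvSubgroups ⊤ E {2}) where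
  smul g Q := ⟨(g : G) •ᶜ Q.1, norm_acts_max_norm (h g.2) Q.2⟩
  one_smul _ := Subtype.ext (cj_one _)
  mul_smul _ _ _ := Subtype.ext (cj_mul _ _ _)

/-- `U` acts by conjugation on the set `Ω` of maximal `E`-invariant 2-subgroups (`norm_acts_max_norm`,
ODD/BG7/MaxNormed), nonempty (`max_normed_exists`).  `Ω` is one orbit of the 3'-group `O = O_{3'}(C(E))`, so
`|Ω|` divides `|O|` and is prime to 3 (`pcore_pgroup`); `IsPGroup.nonempty_fixed_point_of_prime_not_dvd_card`. -/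
theorem fix_max {E U : Subgroup G} (hU : IsPGroup 3 U) (hUE : U ≤ 𝐍(E))
    (htr : ∀ Q₁ ∈ maxInvSubgroups ⊤ E {2}, ∀ Q₂ ∈ maxInvSubgroups ⊤ E {2},
      ConjIn (piCoreOf ({3}ᶜ : Set ℕ) 𝐂(E)) Q₁ Q₂) :
    ∃ Q ∈ maxInvSubgroups ⊤ E {2}, U ≤ 𝐍(Q) := by
  haveI : Fact (Nat.Prime 3) := ⟨Nat.prime_three⟩
  obtain ⟨Q₀, hQ₀, -⟩ := max_normed_exists (q := 2) (A := E) (Q := ⊥) IsPGroup.of_bot
    (by rw [normalizer_eq_top]; exact le_top)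
  have hd : ¬ 3 ∣ Nat.card (maxInvSubgroups ⊤ E {2}) := by
    letI := sbAct ((pcore_sub ({3}ᶜ : Set ℕ) 𝐂(E)).trans (centralizer_le_normalizer _))
    haveI : MulAction.IsPretransitive (piCoreOf ({3}ᶜ : Set ℕ) 𝐂(E)) (maxInvSubgroups ⊤ E {2}) :=
      ⟨fun x y => by
        obtain ⟨g, hg, e⟩ := htr x.1 x.2 y.1 y.2
        exact ⟨⟨g, hg⟩, Subtype.ext e.symm⟩⟩
    rw [← MulAction.index_stabilizer_of_transitive (piCoreOf ({3}ᶜ : Set ℕ) 𝐂(E))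
      (⟨Q₀, hQ₀⟩ : maxInvSubgroups ⊤ E {2})]
    exact fun h => pcore_pgroup ({3}ᶜ : Set ℕ) 𝐂(E) 3 Nat.prime_three (h.trans (index_dvd_card _)) rfl
  letI := sbAct hUE
  obtain ⟨Q, hQ⟩ := hU.nonempty_fixed_point_of_prime_not_dvd_card (maxInvSubgroups ⊤ E {2}) hd
  exact ⟨Q.1, Q.2, fun u hu => mem_normalizer_iff_cj.2 (congrArg Subtype.val (hQ ⟨u, hu⟩))⟩

/-- if moreover `E` normalizes some nontrivial 2-subgroup `T`: `T ≤ Q'` maximal, `Q'` is conjugate to the `Q` of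
`fix_max`, so `Q ≠ ⊥`. -/
theorem fix_max' {E U T : Subgroup G} (hU : IsPGroup 3 U) (hUE : U ≤ 𝐍(E))
    (htr : ∀ Q₁ ∈ maxInvSubgroups ⊤ E {2}, ∀ Q₂ ∈ maxInvSubgroups ⊤ E {2},
      ConjIn (piCoreOf ({3}ᶜ : Set ℕ) 𝐂(E)) Q₁ Q₂)
    (hT : IsPGroup 2 T) (h0 : T ≠ ⊥) (hET : E ≤ 𝐍(T)) :
    ∃ Q : Subgroup G, IsPGroup 2 Q ∧ Q ≠ ⊥ ∧ U ≤ 𝐍(Q) := by
  obtain ⟨Q, hQ, hUQ⟩ := fix_max hU hUE htr
  obtain ⟨Q', hQ', hTQ⟩ := max_normed_exists hT hET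
  obtain ⟨g, -, e⟩ := htr Q hQ Q' hQ'
  refine ⟨Q, (mem_max_normed hQ).1, fun h => h0 (le_bot_iff.1 (hTQ.trans ?_)), hUQ⟩
  rw [e, h, cj_bot]

/-- `B` is abelian and contains every 3-element `x` of `C(B)` (`B⟨x⟩` is a 3-subgroup of `N(B)`, `P` is Sylow in
`N(B)`: conjugate `x` into `P ⊓ C(B) = B` inside `N(B)`).  `thompson_transitivity` (ODD/ThBender; `hsig` by
`thompson_bender` with `X = N(⟨u⟩)`; or S1480) and `fix_max'` with `U = P` contradict `hPinv`. -/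
theorem setB (hc : Con G) (P : Sylow 3 G) {B : Subgroup G} (hB : IsSCN (P : Subgroup G) B)
    (hB3 : ¬ PRankLE 3 2 B)
    (hPinv : ∀ X : Subgroup G, IsPGroup 2 X → (P : Subgroup G) ≤ 𝐍(X) → X = ⊥)
    {T : Subgroup G} (hT : IsPGroup 2 T) (hBT : B ≤ 𝐍(T)) : T = ⊥ := by
  haveI : Fact (Nat.Prime 3) := ⟨Nat.prime_three⟩
  by_contra h0
  obtain ⟨hBP, hPB, hPC⟩ := hB
  have hBp : IsPGroup 3 B := P.isPGroup'.to_le hBP
  have hBC : B ≤ 𝐂(B) := hPC.ge.trans inf_le_right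
  have hfull : ∀ x ∈ 𝐂(B), IsPGroup 3 (zpowers x) → x ∈ B := fun x hx hxp => by
    have hS := (sylIn_sylow P hPB).inf_normal_of_le (normalizer_le_normalizer_centralizer B)
      (centralizer_le_normalizer _)
    rw [hPC] at hS
    exact hS.le_of_normalizes hxp (zpowers_le.2 hx) (zpowers_le.2 (centralizer_le_normalizer _ hx))
      (mem_zpowers x)
  have e : piCoreOf (primesNotDvd 3) 𝐂(B) = piCoreOf ({3}ᶜ : Set ℕ) 𝐂(B) :=
    pcore_congr fun r hr _ => ⟨fun h he => h.2 (Set.mem_singleton_iff.1 he ▸ dvd_rfl),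
      fun h => ⟨hr, fun hd => h ((Nat.prime_dvd_prime_iff_eq hr Nat.prime_three).1 hd)⟩⟩
  obtain ⟨Q, hQ, hQ0, hPQ⟩ := fix_max' P.isPGroup' hPB (fun Q₁ h₁ Q₂ h₂ => e ▸
    Cfsg.Agent.S1480.result 3 hc (fun h => absurd h (by norm_num)) B hBp
      (abelian_iff.2 hBC) hB3 hfull 2 (by norm_num) Q₁ h₁ Q₂ h₂) hT h0 hBT
  exact hQ0 (hPinv Q hQ hPQ)

end CL.M23
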