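import Cfsg.Agent.INV.M23.Defs

/-! Transitivity. -/

set_option autoImplicit false
set_option linter.style.haveILetI false
set_option linter.unusedSectionVars false
open Subgroup Cfsg CL.MSS CL.BG CL.KM CL.K3

namespace CL.M23
variable {G : Type*} [Group G] [Finite G]

/-- copy `thompson_transitivity` (ODD/ThBender).  With `N_i = Q_i ⊓ N(D)`, `hkey` gives `J_i, u`; `Q_i'` = a maximal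
`E`-invariant 2-subgroup containing `J_i` is conjugate to `Q_i` by induction (both contain `J_i ⊓ N_i > D`); run the
old argument for `Q₁', Q₂'` (it only uses `D ≤ Q_i'`, `E ≤ N(D)`, `C_{Q_i' ⊓ N(D)}(u) ≰ D`). -/
theorem trans {E : Subgroup G} (hE : EA 3 E)
    (hsig : ∀ u ∈ E, u ≠ 1 → ∀ R : Subgroup G, IsPGroup 2 R → E ≤ 𝐍(R) → R ≤ 𝐂₁(u) →
      R ≤ piCoreOf ({3}ᶜ : Set ℕ) 𝐍(zpowers u))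
    (hkey : ∀ D N₁ N₂ : Subgroup G, E ≤ 𝐍(D) → IsPGroup 2 N₁ → E ≤ 𝐍(N₁) → D < N₁ → N₁ ≤ 𝐍(D) →
      IsPGroup 2 N₂ → E ≤ 𝐍(N₂) → D < N₂ → N₂ ≤ 𝐍(D) →
      ∃ J₁ J₂ : Subgroup G, IsPGroup 2 J₁ ∧ E ≤ 𝐍(J₁) ∧ D ≤ J₁ ∧ J₁ ≤ 𝐍(D) ∧ ¬ J₁ ⊓ N₁ ≤ D ∧
        IsPGroup 2 J₂ ∧ E ≤ 𝐍(J₂) ∧ D ≤ J₂ ∧ J₂ ≤ 𝐍(D) ∧ ¬ J₂ ⊓ N₂ ≤ D ∧
        ∃ u ∈ E, u ≠ 1 ∧ ¬ J₁ ⊓ 𝐂₁(u) ≤ D ∧ ¬ J₂ ⊓ 𝐂₁(u) ≤ D) :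
    ∀ Q₁ ∈ maxInvSubgroups ⊤ E {2}, ∀ Q₂ ∈ maxInvSubgroups ⊤ E {2},
      ConjIn (piCoreOf ({3}ᶜ : Set ℕ) 𝐂(E)) Q₁ Q₂ := by
  haveI : Fact (Nat.Prime 3) := ⟨Nat.prime_three⟩
  have hE' := hE.isPGroup
  have hEc := hE.comm
  suffices H : ∀ D Q₁ Q₂ : Subgroup G, Q₁ ∈ maxInvSubgroups ⊤ E {2} →
      Q₂ ∈ maxInvSubgroups ⊤ E {2} → D ≤ Q₁ → D ≤ Q₂ → ConjIn (piCoreOf ({3}ᶜ : Set ℕ) 𝐂(E)) Q₁ Q₂ from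
    fun Q₁ h₁ Q₂ h₂ => H ⊥ Q₁ Q₂ h₁ h₂ bot_le bot_le
  intro D
  induction D using CL.subgroup_induction_top with
  | h D IH =>
  intro Q₁ Q₂ h₁ h₂ d₁ d₂
  by_cases hD : D = Q₁ ⊓ Q₂
  swap
  · exact IH _ (lt_of_le_of_ne (le_inf d₁ d₂) hD) Q₁ Q₂ h₁ h₂ inf_le_left inf_le_right
  obtain ⟨q₁, e₁, m₁⟩ := mem_max_normed_iff.1 h₁
  obtain ⟨q₂, e₂, m₂⟩ := mem_max_normed_iff.1 h₂
  by_cases hQ : Q₁ = Q₂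
  · rw [hQ]; exact H39.conjIn_refl _ _
  have l₁ : D < Q₁ := lt_of_le_of_ne d₁ fun h =>
    hQ (m₁ Q₂ q₂ e₂ (h ▸ d₂)).symm
  have l₂ : D < Q₂ := lt_of_le_of_ne d₂ fun h =>
    hQ (m₂ Q₁ q₁ e₁ (h ▸ d₁))
  have hED : E ≤ 𝐍(D) := hD ▸ le_normalizer_inf e₁ e₂
  have hEN : ∀ {Q : Subgroup G}, E ≤ 𝐍(Q) → E ≤ 𝐍(Q ⊓ 𝐍(D)) := fun h =>
    le_normalizer_inf h (le_norm_of_le hED)
  obtain ⟨J₁, J₂, j₁, a₁, b₁, c₁, g₁, j₂, a₂, b₂, c₂, g₂, u, huE, hu1, o₁, o₂⟩ := hkey D _ _ hED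
    (q₁.to_le inf_le_left) (hEN e₁) (lt_inf_normalizer_of_lt q₁ l₁) inf_le_right
    (q₂.to_le inf_le_left) (hEN e₂) (lt_inf_normalizer_of_lt q₂ l₂) inf_le_right
  obtain ⟨P₁, k₁, i₁⟩ := max_normed_exists j₁ a₁
  obtain ⟨P₂, k₂, i₂⟩ := max_normed_exists j₂ a₂
  have t₁ := IH (J₁ ⊓ (Q₁ ⊓ 𝐍(D))) (lt_of_le_of_ne (le_inf b₁ (le_inf d₁ le_normalizer))
    fun h => g₁ h.ge) Q₁ P₁ h₁ k₁ (inf_le_right.trans inf_le_left) (inf_le_left.trans i₁)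
  have t₂ := IH (J₂ ⊓ (Q₂ ⊓ 𝐍(D))) (lt_of_le_of_ne (le_inf b₂ (le_inf d₂ le_normalizer))
    fun h => g₂ h.ge) P₂ Q₂ k₂ h₂ (inf_le_left.trans i₂) (inf_le_right.trans inf_le_left)
  suffices t : ConjIn (piCoreOf ({3}ᶜ : Set ℕ) 𝐂(E)) P₁ P₂ by
    obtain ⟨x, hx, rfl⟩ := t₁
    obtain ⟨y, hy, rfl⟩ := t
    obtain ⟨w, hw, rfl⟩ := t₂
    exact ⟨w * y * x, mul_mem (mul_mem hw hy) hx, by rw [cj_mul, cj_mul]⟩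
  have n₁ : ¬ P₁ ⊓ 𝐍(D) ⊓ 𝐂₁(u) ≤ D := fun h => o₁ ((inf_le_inf_right _ (le_inf i₁ c₁)).trans h)
  have n₂ : ¬ P₂ ⊓ 𝐍(D) ⊓ 𝐂₁(u) ≤ D := fun h => o₂ ((inf_le_inf_right _ (le_inf i₂ c₂)).trans h)
  replace d₁ := b₁.trans i₁
  replace d₂ := b₂.trans i₂
  clear t₁ t₂ o₁ o₂ g₁ g₂ i₁ i₂ l₁ l₂ hQ m₁ m₂ e₁ e₂ q₁ q₂ hD h₁ h₂ Q₁ Q₂
  revert P₁ P₂
  intro Q₁ h₁ Q₂ h₂ n₁ n₂ d₁ d₂
  obtain ⟨q₁, e₁⟩ := mem_max_normed h₁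
  obtain ⟨q₂, e₂⟩ := mem_max_normed h₂
  have hEu : E ≤ 𝐂₁(u) := le_cent1_iff.2 (le_cent_of_abelian hEc huE)
  have hEu' : E ≤ 𝐍(zpowers u) := le_norm_of_le_cent (by rwa [cent_zpowers])
  set K := piCoreOf ({3}ᶜ : Set ℕ) 𝐍(zpowers u) ⊓ 𝐍(D) with hK
  have hEK : E ≤ 𝐍(K) := le_normalizer_inf (hEu'.trans (pcore_norm _ _)) (le_norm_of_le hED)
  have hKp : PiGrp ({3}ᶜ : Set ℕ) K := (pcore_pgroup _ _).inf_left _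
  have hco : (#|K|).Coprime #|E| := hKp.coprime_isPGroup' hE' rfl
  have hR : ∀ {Q : Subgroup G}, IsPGroup 2 Q → E ≤ 𝐍(Q) →
      ∃ R, SylIn 2 R K ∧ Q ⊓ 𝐍(D) ⊓ 𝐂₁(u) ≤ R ∧ E ≤ 𝐍(R) := by
    intro Q hq he
    have hq' : IsPGroup 2 ↥(Q ⊓ 𝐍(D) ⊓ 𝐂₁(u)) := hq.to_le (inf_le_left.trans inf_le_left)
    have he' : E ≤ 𝐍(Q ⊓ 𝐍(D) ⊓ 𝐂₁(u)) := le_normalizer_inf (hEN he) (le_norm_of_le hEu)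
    exact H39.exists_inv_sylIn_ge hEK hco (Or.inl (H39.sol_pgroup hE'))
      (le_inf (hsig u huE hu1 _ hq' he' inf_le_right) (inf_le_left.trans inf_le_right)) hq' he'
  obtain ⟨R₁, s₁, r₁, f₁⟩ := hR q₁ e₁
  obtain ⟨R₂, s₂, r₂, f₂⟩ := hR q₂ e₂
  obtain ⟨c, hc, hcR⟩ : ∃ c ∈ K ⊓ 𝐂(E), c •ᶜ R₁ = R₂ := by
    obtain ⟨k, hk, rfl⟩ := s₁.exists_conj s₂
    exact coprime_invariant_conj_trans E K hEK hco.symm (Or.inl (H39.sol_pgroup hE')) R₁ f₁ k hk f₂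
  have hcO : c ∈ piCoreOf ({3}ᶜ : Set ℕ) 𝐂(E) :=
    pcore_inf_le ((cent_le_cent1 huE).trans (by rw [← cent_zpowers]; exact BG.cent_le_norm _))
      ⟨hc.1.1, hc.2⟩
  obtain ⟨Q₃, h₃, l₃⟩ := max_normed_exists (A := E) (Q := D ⊔ R₂)
    (isPGroup_sup_of_normalizes' (q₁.to_le d₁) s₂.pgroup (s₂.le.trans inf_le_right))
    (le_normalizer_sup hED f₂)
  have k₂ : ConjIn (piCoreOf ({3}ᶜ : Set ℕ) 𝐂(E)) Q₃ Q₂ := by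
    refine IH (D ⊔ (Q₂ ⊓ 𝐍(D) ⊓ 𝐂₁(u))) (lt_of_le_of_ne le_sup_left fun h => n₂ ?_) Q₃ Q₂ h₃ h₂
      ((sup_le_sup_left r₂ D).trans l₃) (sup_le d₂ (inf_le_left.trans inf_le_left))
    exact le_sup_right.trans h.ge
  have hcD : c •ᶜ D = D := cj_eq_of_mem_normalizer hc.1.2
  have k₁ : ConjIn (piCoreOf ({3}ᶜ : Set ℕ) 𝐂(E)) (c •ᶜ Q₁) Q₃ := by
    refine IH (D ⊔ c •ᶜ (Q₁ ⊓ 𝐍(D) ⊓ 𝐂₁(u))) (lt_of_le_of_ne le_sup_left fun h => n₁ ?_) _ Q₃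
      (norm_acts_max_norm (BG.cent_le_norm E hc.2) h₁) h₃
      (sup_le (hcD.ge.trans (cj_mono c d₁)) (cj_mono c (inf_le_left.trans inf_le_left)))
      ((sup_le_sup_left ((cj_mono c r₁).trans hcR.le) D).trans l₃)
    rw [← cj_le_cj_iff c, hcD]
    exact le_sup_right.trans h.ge
  obtain ⟨a, ha, rfl⟩ := k₂
  obtain ⟨b, hb, rfl⟩ := k₁
  exact ⟨a * b * c, mul_mem (mul_mem ha hb) hcO, by rw [cj_mul, cj_mul]⟩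

end CL.M23
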