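import Cfsg.Agent.INV.M23.Defs
import Cfsg.Agent.SPOR.LE.Lin

/-! `E₉` on an orthogonal space over `𝔽₂`. -/

set_option autoImplicit false
set_option linter.style.haveILetI false
set_option linter.unusedSectionVars false
open Subgroup Cfsg CL.MSS CL.BG CL.KM CL.K3
open QuadraticMap

namespace CL.M23

variable {V : Type*} [AddCommGroup V] [Module (ZMod 2) V] [Finite V] {q : QuadraticForm (ZMod 2) V}
  {α β : V ≃ₗ[ZMod 2] V}

theorem lin3 {γ : V ≃ₗ[ZMod 2] V} (h : γ ^ 3 = 1) (v : V) : γ (γ (γ v)) = v := by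
  have := congrArg (fun x : V ≃ₗ[ZMod 2] V => x v) h
  simpa [pow_succ] using this

theorem linc {γ δ : V ≃ₗ[ZMod 2] V} (h : Commute γ δ) (v : V) : δ (γ v) = γ (δ v) :=
  (congrArg (fun x : V ≃ₗ[ZMod 2] V => x v) h.eq).symm

theorem I2.mul_ne {H : Type*} [Group H] {a b : H} (i : I2 a b) : a * b ≠ 1 ∧ a * (b * b) ≠ 1 := by
  refine ⟨fun e => i.nb ?_, fun e => i.nb ?_⟩
  · rw [eq_inv_of_mul_eq_one_right e]; exact inv_mem (mem_zpowers a)
  · have h1 : b * b * b = 1 := by rw [← pow_three', i.b3]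
    have : b = a := by
      calc b = a * (b * b) * b := by rw [e, one_mul]
        _ = a := by rw [mul_assoc, h1, mul_one]
    rw [this]; exact mem_zpowers a

/-- `V` is the sum of the fixed spaces of `α, β, αβ, αβ²`: with `π_x = 1 + x + x²` (image fixed by `x`) one has
`π_α + π_β + π_{αβ} + π_{αβ²} = 1 + π_α π_β` in characteristic 2 (expand; the left side is
`4 + ∑_{e ≠ 1} e`). -/
theorem decomp (i : I2 α β) (v : V) : ∃ a b c d : V, α a = a ∧ β b = b ∧ α (β c) = c ∧
    α (β (β d)) = d ∧ v = a + b + c + d := by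
  have a3 := lin3 i.a3
  have b3 := lin3 i.b3
  have ab := linc i.ab
  refine ⟨(v + α v + α (α v)) + ((v + β v + β (β v)) + α (v + β v + β (β v)) + α (α (v + β v + β (β v)))),
    v + β v + β (β v), v + α (β v) + α (α (β (β v))), v + α (β (β v)) + α (α (β v)), ?_, ?_, ?_, ?_, ?_⟩
  · simp only [map_add, a3]; abel
  · simp only [map_add, b3]; abel
  · simp only [map_add, a3, b3, ab]; abel
  · simp only [map_add, a3, b3, ab]; abel
  · simp only [map_add]
    have := CL.LE.v2_add_self (v + v + v + α v + α (α v) + β v + β (β v) + α (β v) + α (β (β v)) +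
      α (α (β v)) + α (α (β (β v))))
    rw [← CL.LE.v2_add_eq_zero, ← this]
    abel

/-- Step 1: `F₀ = Fix α ⊓ Fix β = 0`.  A vector `u ≠ 0` of `F₀` is nonsingular (`H1`).  Take `w` with `B(u,w) = 1`,
`u' = π_α π_β w ∈ F₀`, `B(u,u') = 1`, so `q u' = q (u+u') = 1`.  As `α ≠ 1`, by `decomp` some `e ∈ {β, αβ, αβ²}` fixes a
vector `x` not fixed by `α`.  `V₁ = {v | e v = v, v + αv + α²v = 0}` is invariant, contains `x + αx ≠ 0`, so has a
nonsingular `v` (`H1`); `q (v + αv) = q (α²v) = 1`; `V₁ ⊥ F₀` (`B(u,v) = 3 B(u,v) = B(u, v+αv+α²v)`).  Then `u + v`,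
`u' + αv` contradict `H2`.  Step 2: for `v ∈ Fix α`, `v + βv + β²v ∈ F₀ = 0`; if `v ≠ 0` is singular then
`⟨v, βv⟩` contradicts `H1`.  So `Fix α` is anisotropic: distinct nonzero `u, v` have `B(u,v) = 1`; no three
independent vectors (`B(u, v+w) = 0`). -/
theorem fix_le (nd : ∀ v, (∀ w, polar q v w = 0) → v = 0) (i : I2 α β) (qa : ∀ v, q (α v) = q v)
    (qb : ∀ v, q (β v) = q v)
    (H1 : ∀ U : Submodule (ZMod 2) V, (∀ u ∈ U, q u = 0) → (∀ u ∈ U, α u ∈ U) → (∀ u ∈ U, β u ∈ U) → U = ⊥)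
    (H2 : ∀ e ∈ zpowers α ⊔ zpowers β, e ≠ 1 → ∀ u v : V, e u = u → e v = v → q u = 0 → q v = 0 →
      q (u + v) = 0 → u = 0 ∨ v = 0 ∨ u = v) : Nat.card {v // α v = v} ≤ 4 := by
  have a3 := lin3 i.a3
  have b3 := lin3 i.b3
  have ab := linc i.ab
  have s2 := @CL.LE.v2_add_self V _ _
  have Ba := CL.LE.polar_isometry q (f := α) (map_add _) qa
  have Bb := CL.LE.polar_isometry q (f := β) (map_add _) qb
  have z3 : ∀ c : ZMod 2, c + c + c = c := by decide
  have fa : ∀ u, α u = u → ∀ x, polar q u (x + α x + α (α x)) = polar q u x := fun u hu x => by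
    have h1 : ∀ y, polar q u (α y) = polar q u y := fun y => by rw [← Ba u y, hu]
    rw [polar_add_right, polar_add_right, h1, h1, h1, z3]
  have fb : ∀ u, β u = u → ∀ x, polar q u (x + β x + β (β x)) = polar q u x := fun u hu x => by
    have h1 : ∀ y, polar q u (β y) = polar q u y := fun y => by rw [← Bb u y, hu]
    rw [polar_add_right, polar_add_right, h1, h1, h1, z3]
  have ns : ∀ u, α u = u → β u = u → u ≠ 0 → q u = 1 := fun u h1 h2 h0 =>
    CL.LE.z2_eq_one fun e => h0 <| by
      have := H1 (Submodule.span (ZMod 2) {u}) (fun x hx => by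
          rcases CL.LE.v2_mem_span.1 hx with rfl | rfl
          exacts [map_zero q, e])
        (fun x hx => by
          rcases CL.LE.v2_mem_span.1 hx with rfl | rfl
          · rw [map_zero]; exact hx
          · rw [h1]; exact hx)
        (fun x hx => by
          rcases CL.LE.v2_mem_span.1 hx with rfl | rfl
          · rw [map_zero]; exact hx
          · rw [h2]; exact hx)
      exact Submodule.span_singleton_eq_bot.1 this
  have F0 : ∀ u, α u = u → β u = u → u = 0 := fun u ua ub => by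
    by_contra u0
    obtain ⟨w, hw⟩ : ∃ w, polar q u w ≠ 0 := by
      by_contra! hc
      exact u0 (nd u hc)
    obtain ⟨u', va, vb, huu⟩ : ∃ u', α u' = u' ∧ β u' = u' ∧ polar q u u' = 1 := by
      refine ⟨(w + β w + β (β w)) + α (w + β w + β (β w)) + α (α (w + β w + β (β w))), ?_, ?_, ?_⟩
      · simp only [map_add, a3]; abel
      · simp only [map_add, b3, ab]; abel
      · rw [fa u ua, fb u ub]; exact CL.LE.z2_eq_one hw
    have u'0 : u' ≠ 0 := fun e => by rw [e, polar_zero_right] at huu; exact zero_ne_one huu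
    have uu0 : u + u' ≠ 0 := fun e => by
      rw [← CL.LE.v2_add_eq_zero.1 e, CL.LE.polar_self_two] at huu; exact zero_ne_one huu
    obtain ⟨e, he, e1, ea, eb, ef, x, ex, ax⟩ : ∃ e ∈ zpowers α ⊔ zpowers β, e ≠ 1 ∧
        (∀ y, e (α y) = α (e y)) ∧ (∀ y, e (β y) = β (e y)) ∧ (∀ y, α y = y → β y = y → e y = y) ∧
        ∃ x, e x = x ∧ α x ≠ x := by
      have ma : α ∈ zpowers α ⊔ zpowers β := mem_sup_left (mem_zpowers α)
      have mb : β ∈ zpowers α ⊔ zpowers β := mem_sup_right (mem_zpowers β)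
      by_contra! hc
      refine i.a1 (LinearEquiv.ext fun v => ?_)
      obtain ⟨a, b, c, d, ha, hb, hc', hd, rfl⟩ := decomp i v
      have h1 := hc β mb i.b1 ab (fun _ => rfl) (fun _ _ h => h) b hb
      have h2 := hc (α * β) (mul_mem ma mb) i.mul_ne.1 (fun y => by simp [ab]) (fun y => by simp [ab])
        (fun y h h' => by simp [h, h']) c hc'
      have h3 := hc (α * (β * β)) (mul_mem ma (mul_mem mb mb)) i.mul_ne.2 (fun y => by simp [ab])
        (fun y => by simp [ab]) (fun y h h' => by simp [h, h']) d hd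
      simp [ha, h1, h2, h3]
    let U : Submodule (ZMod 2) V := CL.LE.v2Sub {v | e v = v ∧ v + α v + α (α v) = 0} ⟨map_zero _, by simp⟩
      (fun a ha b hb => ⟨by rw [map_add, ha.1, hb.1], by
        have := congrArg₂ (· + ·) ha.2 hb.2
        simp only [map_add, add_zero] at this ⊢
        rw [← this]; abel⟩)
    have mU : ∀ v, v ∈ U ↔ e v = v ∧ v + α v + α (α v) = 0 := fun _ => Iff.rfl
    have Ua : ∀ v ∈ U, α v ∈ U := fun v hv => (mU _).2 ⟨by rw [ea, hv.1], by
      rw [← map_add, ← map_add, hv.2, map_zero]⟩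
    have Ub : ∀ v ∈ U, β v ∈ U := fun v hv => (mU _).2 ⟨by rw [eb, hv.1], by
      rw [← ab, ← ab, ← map_add, ← map_add, hv.2, map_zero]⟩
    have U0 : ∀ v ∈ U, α v = v → v = 0 := fun v hv h => by
      have := hv.2
      rwa [h, h, s2, zero_add] at this
    have Up : ∀ y, α y = y → ∀ v ∈ U, polar q y v = 0 := fun y hy v hv => by
      rw [← fa y hy, hv.2, polar_zero_right]
    obtain ⟨v, hv, qv⟩ : ∃ v ∈ U, q v ≠ 0 := by
      by_contra! hc
      have h1 : x + α x ∈ U := (mU _).2 ⟨by rw [map_add, ea, ex], by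
        simp only [map_add, a3]
        rw [← s2 (x + α x + α (α x))]; abel⟩
      rw [H1 U hc Ua Ub, Submodule.mem_bot] at h1
      exact ax (CL.LE.v2_add_eq_zero.1 h1).symm
    have qv1 := CL.LE.z2_eq_one qv
    have qv2 : q (v + α v) = 1 := by rw [CL.LE.v2_add_eq_zero.1 hv.2, qa, qa, qv1]
    have uua : α (u + u') = u + u' := by rw [map_add, ua, va]
    rcases H2 e he e1 (u + v) (u' + α v) (by rw [map_add, ef u ua ub, hv.1])
      (by rw [map_add, ef u' va vb, (Ua v hv).1])
      (by rw [CL.LE.q_add, ns u ua ub u0, qv1, Up u ua v hv]; rfl)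
      (by rw [CL.LE.q_add, ns u' va vb u'0, qa, qv1, Up u' va _ (Ua v hv)]; rfl)
      (by rw [show u + v + (u' + α v) = (u + u') + (v + α v) by abel, CL.LE.q_add,
        ns _ uua (by rw [map_add, ub, vb]) uu0, qv2, Up _ uua _ (add_mem hv (Ua v hv))]; rfl)
      with h | h | h
    · exact u0 (U0 u (CL.LE.v2_add_eq_zero.1 h ▸ hv) ua)
    · exact u'0 (U0 u' (CL.LE.v2_add_eq_zero.1 h ▸ Ua v hv) va)
    · refine uu0 (U0 _ ?_ uua)
      have : u + u' = v + α v := by
        rw [← CL.LE.v2_add_eq_zero, show u + u' + (v + α v) = (u + v) + (u' + α v) by abel, h, s2]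
      rw [this]; exact add_mem hv (Ua v hv)
  have an : ∀ v, α v = v → v ≠ 0 → q v = 1 := fun v va v0 => CL.LE.z2_eq_one fun e => v0 <| by
    have h1 : v + β v = β (β v) := CL.LE.v2_add_eq_zero.1 (F0 _ (by simp only [map_add, ← ab, va])
      (by simp only [map_add, b3]; abel))
    have m1 : v ∈ Submodule.span (ZMod 2) {v, β v} := Submodule.subset_span (by simp)
    have m2 : β v ∈ Submodule.span (ZMod 2) {v, β v} := Submodule.subset_span (by simp)
    have := H1 (Submodule.span (ZMod 2) {v, β v}) (fun x hx => by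
        obtain ⟨a, b, rfl⟩ := Submodule.mem_span_pair.1 hx
        rcases CL.LE.z2_cases' a with rfl | rfl <;> rcases CL.LE.z2_cases' b with rfl | rfl <;>
          simp [e, qb, h1])
      (fun x hx => by
        obtain ⟨a, b, rfl⟩ := Submodule.mem_span_pair.1 hx
        rw [map_add, map_smul, map_smul, ← ab, va]; exact hx)
      (fun x hx => by
        obtain ⟨a, b, rfl⟩ := Submodule.mem_span_pair.1 hx
        rw [map_add, map_smul, map_smul, ← h1]
        exact add_mem (Submodule.smul_mem _ _ m2) (Submodule.smul_mem _ _ (add_mem m1 m2)))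
    rwa [this, Submodule.mem_bot] at m1
  have an2 : ∀ u v, α u = u → α v = v → u ≠ 0 → polar q u v = 0 → v = 0 ∨ v = u := fun u v ua va u0 h => by
    by_contra! hc
    have := an (u + v) (by rw [map_add, ua, va]) fun e => hc.2 (CL.LE.v2_add_eq_zero.1 e).symm
    rw [CL.LE.q_add, an u ua u0, an v va hc.1, h] at this
    exact absurd this (by decide)
  by_cases hc : ∃ u v, α u = u ∧ α v = v ∧ u ≠ 0 ∧ v ≠ 0 ∧ u ≠ v
  · obtain ⟨u, v, ua, va, u0, v0, uv⟩ := hc
    refine (Nat.card_le_card_of_injective (fun x : {v // α v = v} => (polar q u x, polar q v x))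
      fun x y h => Subtype.ext (CL.LE.v2_add_eq_zero.1 ?_)).trans (by simp)
    have h1 := congrArg Prod.fst h
    have h2 := congrArg Prod.snd h
    have da : α (x.1 + y.1) = x.1 + y.1 := by rw [map_add, x.2, y.2]
    simp only at h1 h2
    rcases an2 u _ ua da u0 (by rw [polar_add_right, h1, CL.LE.v2_add_self]) with e | e
    · exact e
    rcases an2 v _ va da v0 (by rw [polar_add_right, h2, CL.LE.v2_add_self]) with e' | e'
    · exact e'
    exact (uv (e.symm.trans e')).elim
  · push Not at hc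
    refine (Nat.card_le_card_of_injective (fun x : {v // α v = v} => (x.1 = 0))
      fun x y h => Subtype.ext ?_).trans (by simp)
    simp only [eq_iff_iff] at h
    by_cases h0 : x.1 = 0
    · rw [h0, h.1 h0]
    · exact hc _ _ x.2 y.2 h0 fun e => h0 (h.2 e)

/-- `decomp`; and `|V| > 4`: otherwise `E₉` embeds into the permutations of the at most 3 nonzero vectors
(`I2.card`). -/
theorem card_le (i : I2 α β) (H : ∀ e ∈ zpowers α ⊔ zpowers β, e ≠ 1 → Nat.card {v // e v = v} ≤ 4) :
    4 < Nat.card V ∧ Nat.card V ≤ 256 := by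
  haveI : Finite (V ≃ₗ[ZMod 2] V) := Finite.of_injective _ DFunLike.coe_injective
  have ma : α ∈ zpowers α ⊔ zpowers β := mem_sup_left (mem_zpowers α)
  have mb : β ∈ zpowers α ⊔ zpowers β := mem_sup_right (mem_zpowers β)
  constructor
  · by_contra! hc
    have h1 := Nat.card_le_card_of_injective (fun e : (zpowers α ⊔ zpowers β : Subgroup (V ≃ₗ[ZMod 2] V)) =>
      (Equiv.Perm.subtypePerm e.1.toEquiv (p := fun v => v ≠ 0) fun v => by simp)) fun e e' h =>
        Subtype.ext (LinearEquiv.ext fun v => by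
          by_cases h0 : v = 0
          · rw [h0, map_zero, map_zero]
          · exact congrArg Subtype.val (congrArg (fun s : Equiv.Perm {v : V // v ≠ 0} => s ⟨v, h0⟩) h))
    have h2 : Nat.card {v : V // v ≠ 0} < Nat.card V := Finite.card_subtype_lt (x := 0) (by simp)
    rw [i.card, Nat.card_perm] at h1
    have := Nat.factorial_le (show Nat.card {v : V // v ≠ 0} ≤ 3 by omega)
    simp only [Nat.factorial] at this
    omega
  · have h1 := Nat.card_le_card_of_surjective (fun x : {v // α v = v} × {v // β v = v} ×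
        {v // (α * β) v = v} × {v // (α * (β * β)) v = v} => x.1.1 + x.2.1.1 + x.2.2.1.1 + x.2.2.2.1) fun v => by
      obtain ⟨a, b, c, d, ha, hb, hc, hd, rfl⟩ := decomp i v
      exact ⟨(⟨a, ha⟩, ⟨b, hb⟩, ⟨c, hc⟩, ⟨d, hd⟩), rfl⟩
    rw [Nat.card_prod, Nat.card_prod, Nat.card_prod] at h1
    exact h1.trans (Nat.mul_le_mul (H α ma i.a1) (Nat.mul_le_mul (H β mb i.b1)
      (Nat.mul_le_mul (H _ (mul_mem ma mb) i.mul_ne.1) (H _ (mul_mem ma (mul_mem mb mb)) i.mul_ne.2))))

end CL.M23
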